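import Mathlib
import Cfsg.Agent.Helper6.SpCard
import Cfsg.Agent.S0749

set_option autoImplicit false

namespace Cfsg.Agent.Helper6

open Matrix

variable {F : Type*} [Field F]

/-- the symplectic form as a bilinear form -/
noncomputable def sfB (m : ℕ) (F : Type*) [Field F] :
    LinearMap.BilinForm F (Fin m ⊕ Fin m → F) :=
  LinearMap.mk₂ F (Cfsg.sympForm m F) sf_add_left (fun c u v => sf_smul_left c u v)
    sf_add_right (fun c u v => sf_smul_right c u v)

theorem sfB_apply (m : ℕ) (u v : Fin m ⊕ Fin m → F) :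
    sfB m F u v = Cfsg.sympForm m F u v := rfl

theorem sfB_nondeg (m : ℕ) : (sfB m F).Nondegenerate := by
  constructor
  · intro u hu
    by_contra h
    obtain ⟨x, hx⟩ := S0768.nondeg u h
    exact hx (hu x)
  · intro u hu
    by_contra h
    obtain ⟨x, hx⟩ := S0768.nondeg u h
    apply hx
    have := hu x
    rw [sfB_apply] at this
    rw [sf_swap, this, neg_zero]

theorem sfB_alt (m : ℕ) : (sfB m F).IsAlt := fun u => sf_self u

theorem sf_span_zero {m : ℕ} {ι : Type*} (v : ι → (Fin m ⊕ Fin m → F))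
    (hv0 : ∀ i j, Cfsg.sympForm m F (v i) (v j) = 0) :
    ∀ x ∈ Submodule.span F (Set.range v), ∀ y ∈ Submodule.span F (Set.range v),
      Cfsg.sympForm m F x y = 0 := by
  have h1 : ∀ i, ∀ y ∈ Submodule.span F (Set.range v), Cfsg.sympForm m F (v i) y = 0 := by
    intro i y hy
    have : Submodule.span F (Set.range v) ≤ LinearMap.ker (sfL (v i)) := by
      rw [Submodule.span_le]
      rintro _ ⟨j, rfl⟩
      exact hv0 i j
    exact this hy
  intro x hx y hy
  have : Submodule.span F (Set.range v) ≤ LinearMap.ker ((sfB m F).flip y) := by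
    rw [Submodule.span_le]
    rintro _ ⟨i, rfl⟩
    exact h1 i y hy
  exact this hx

theorem sp_of_isometry (m : ℕ) (g : (Fin m ⊕ Fin m → F) ≃ₗ[F] (Fin m ⊕ Fin m → F))
    (hg : ∀ u v, Cfsg.sympForm m F (g u) (g v) = Cfsg.sympForm m F u v) :
    ∃ A : Matrix.symplecticGroup (Fin m) F,
      ∀ x, (A : Matrix (Fin m ⊕ Fin m) (Fin m ⊕ Fin m) F) *ᵥ x = g x := by
  classical
  have hmul : ∀ x, LinearMap.toMatrix'
      (g : (Fin m ⊕ Fin m → F) →ₗ[F] (Fin m ⊕ Fin m → F)) *ᵥ x = g x := by
    intro x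
    rw [← Matrix.toLin'_apply, Matrix.toLin'_toMatrix']
    rfl
  refine ⟨⟨LinearMap.toMatrix' (g : (Fin m ⊕ Fin m → F) →ₗ[F] (Fin m ⊕ Fin m → F)), ?_⟩, hmul⟩
  rw [SymplecticGroup.mem_iff']
  ext i j
  have h := hg (Pi.single i 1) (Pi.single j 1)
  rw [← hmul, ← hmul] at h
  unfold Cfsg.sympForm at h
  rw [← Matrix.vecMul_transpose, ← Matrix.dotProduct_mulVec, Matrix.mulVec_mulVec,
    Matrix.mulVec_mulVec] at h
  simpa [Matrix.mulVec_single_one, Matrix.mul_assoc] using h

theorem sp_frames_trans (m : ℕ) {k : ℕ} (v w : Fin k → (Fin m ⊕ Fin m → F))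
    (hv : LinearIndependent F v) (hw : LinearIndependent F w)
    (hv0 : ∀ i j, Cfsg.sympForm m F (v i) (v j) = 0)
    (hw0 : ∀ i j, Cfsg.sympForm m F (w i) (w j) = 0) :
    ∃ A : Matrix.symplecticGroup (Fin m) F,
      ∀ i, (A : Matrix (Fin m ⊕ Fin m) (Fin m ⊕ Fin m) F) *ᵥ v i = w i := by
  have hφ : ∀ x x' : Submodule.span F (Set.range v),
      sfB m F (((Module.Basis.span hv).equiv (Module.Basis.span hw) (Equiv.refl _) x :
          Submodule.span F (Set.range w)) : Fin m ⊕ Fin m → F)
        (((Module.Basis.span hv).equiv (Module.Basis.span hw) (Equiv.refl _) x' :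
          Submodule.span F (Set.range w)) : Fin m ⊕ Fin m → F)
      = sfB m F (x : Fin m ⊕ Fin m → F) (x' : Fin m ⊕ Fin m → F) := by
    intro x x'
    rw [sfB_apply, sfB_apply, sf_span_zero v hv0 _ x.2 _ x'.2,
      sf_span_zero w hw0 _ (Subtype.property _) _ (Subtype.property _)]
  obtain ⟨g, hg1, hg2⟩ := Cfsg.Agent.S0749.result (sfB m F) (sfB_nondeg m) (sfB_alt m) _ _
    ((Module.Basis.span hv).equiv (Module.Basis.span hw) (Equiv.refl _)) hφ
  obtain ⟨A, hA⟩ := sp_of_isometry m g hg1
  refine ⟨A, fun i => ?_⟩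
  rw [hA]
  have := hg2 (Module.Basis.span hv i)
  rw [Module.Basis.coe_span_apply] at this
  rw [this, Module.Basis.equiv_apply, Equiv.refl_apply, Module.Basis.coe_span_apply]

/-- totally isotropic `k`-frames -/
def tiFr (m k : ℕ) (F : Type*) [Field F] : Set (Fin k → (Fin m ⊕ Fin m → F)) :=
  {v | LinearIndependent F v ∧ ∀ i j, Cfsg.sympForm m F (v i) (v j) = 0}

/-- the action of `Sp` on tuples of vectors -/
@[instance_reducible]
def spActFr (m k : ℕ) (F : Type*) [Field F] :
    MulAction (Matrix.symplecticGroup (Fin m) F) (Fin k → (Fin m ⊕ Fin m → F)) where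
  smul A v := fun i => (A : Matrix (Fin m ⊕ Fin m) (Fin m ⊕ Fin m) F) *ᵥ v i
  one_smul v := by funext i; exact Matrix.one_mulVec _
  mul_smul A B v := by funext i; exact (Matrix.mulVec_mulVec _ _ _).symm

theorem tiFr_fiber [Fintype F] (m k : ℕ) (v : Fin k → (Fin m ⊕ Fin m → F))
    (hv : v ∈ tiFr m k F) :
    Nat.card {x : Fin m ⊕ Fin m → F // (∀ i, Cfsg.sympForm m F (v i) x = 0) ∧
        x ∉ Submodule.span F (Set.range v)}
      = Fintype.card F ^ (2 * m - k) - Fintype.card F ^ k := by
  classical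
  have hO : ∀ x, x ∈ (sfB m F).orthogonal (Submodule.span F (Set.range v)) ↔
      ∀ i, Cfsg.sympForm m F (v i) x = 0 := by
    intro x
    constructor
    · intro hx i
      exact hx (v i) (Submodule.subset_span ⟨i, rfl⟩)
    · intro hx n hn
      have : Submodule.span F (Set.range v) ≤ LinearMap.ker ((sfB m F).flip x) := by
        rw [Submodule.span_le]
        rintro _ ⟨i, rfl⟩
        exact hx i
      exact this hn
  have hsub : ((Submodule.span F (Set.range v) : Submodule F (Fin m ⊕ Fin m → F)) :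
        Set (Fin m ⊕ Fin m → F)) ⊆
      ((sfB m F).orthogonal (Submodule.span F (Set.range v)) : Set (Fin m ⊕ Fin m → F)) := by
    intro x hx n hn
    exact sf_span_zero v hv.2 n hn x hx
  have h1 : Nat.card {x : Fin m ⊕ Fin m → F // (∀ i, Cfsg.sympForm m F (v i) x = 0) ∧
        x ∉ Submodule.span F (Set.range v)}
      = (((sfB m F).orthogonal (Submodule.span F (Set.range v)) : Set (Fin m ⊕ Fin m → F)) \
          (Submodule.span F (Set.range v) : Set (Fin m ⊕ Fin m → F))).ncard := by
    rw [← Nat.card_coe_set_eq]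
    exact Nat.card_congr (Equiv.subtypeEquivRight (fun x => by
      rw [Set.mem_sdiff, SetLike.mem_coe, hO]
      rfl))
  rw [h1, Set.ncard_sdiff hsub, ← Nat.card_coe_set_eq, ← Nat.card_coe_set_eq]
  have h2 : Nat.card ↥((sfB m F).orthogonal (Submodule.span F (Set.range v)))
      = Fintype.card F ^ (2 * m - k) := by
    haveI : Fintype ↥((sfB m F).orthogonal (Submodule.span F (Set.range v))) :=
      Fintype.ofFinite _
    rw [Nat.card_eq_fintype_card, Module.card_eq_pow_finrank (K := F),
      LinearMap.BilinForm.finrank_orthogonal (sfB_nondeg m), finrank_span_eq_card hv.1,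
      Module.finrank_fintype_fun_eq_card, Fintype.card_sum, Fintype.card_fin, Fintype.card_fin,
      ← two_mul]
  have h3 : Nat.card ↥(Submodule.span F (Set.range v)) = Fintype.card F ^ k := by
    haveI : Fintype ↥(Submodule.span F (Set.range v)) := Fintype.ofFinite _
    rw [Nat.card_eq_fintype_card, Module.card_eq_pow_finrank (K := F),
      finrank_span_eq_card hv.1, Fintype.card_fin]
  exact congrArg₂ (· - ·) h2 h3

theorem tiFr_card [Fintype F] (m : ℕ) : ∀ k : ℕ,
    Nat.card (tiFr m k F)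
      = ∏ i ∈ Finset.range k, (Fintype.card F ^ (2 * m - i) - Fintype.card F ^ i) := by
  classical
  intro k
  induction k with
  | zero =>
    rw [Finset.prod_range_zero, Nat.card_eq_one_iff_unique]
    exact ⟨⟨fun a b => Subtype.ext (Subsingleton.elim _ _)⟩,
      ⟨⟨fun i => i.elim0, linearIndependent_empty_type, fun i => i.elim0⟩⟩⟩
  | succ k ih =>
    have e1 : ↥(tiFr m (k + 1) F) ≃
        {p : (Fin k → (Fin m ⊕ Fin m → F)) × (Fin m ⊕ Fin m → F) // p.1 ∈ tiFr m k F ∧
          ((∀ i, Cfsg.sympForm m F (p.1 i) p.2 = 0) ∧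
            p.2 ∉ Submodule.span F (Set.range p.1))} :=
      { toFun := fun u => ⟨(Fin.init u.1, u.1 (Fin.last k)), by
          have hli : LinearIndependent F (Fin.snoc (Fin.init u.1) (u.1 (Fin.last k)) :
              Fin (k + 1) → (Fin m ⊕ Fin m → F)) := by
            rw [Fin.snoc_init_self]
            exact u.2.1
          rw [linearIndependent_finSnoc] at hli
          exact ⟨⟨hli.1, fun i j => u.2.2 _ _⟩, fun i => u.2.2 _ _, hli.2⟩⟩
        invFun := fun p => ⟨Fin.snoc p.1.1 p.1.2, by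
          refine ⟨linearIndependent_finSnoc.2 ⟨p.2.1.1, p.2.2.2⟩, ?_⟩
          intro i j
          induction i using Fin.lastCases with
          | last =>
            induction j using Fin.lastCases with
            | last => exact sf_self _
            | cast j =>
              rw [Fin.snoc_last, Fin.snoc_castSucc, sf_swap, p.2.2.1 j, neg_zero]
          | cast i =>
            induction j using Fin.lastCases with
            | last =>
              rw [Fin.snoc_last, Fin.snoc_castSucc]
              exact p.2.2.1 i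
            | cast j =>
              rw [Fin.snoc_castSucc, Fin.snoc_castSucc]
              exact p.2.1.2 i j⟩
        left_inv := fun u => Subtype.ext (Fin.snoc_init_self _)
        right_inv := fun p => Subtype.ext (Prod.ext
          (by
            show Fin.init (Fin.snoc p.1.1 p.1.2 : Fin (k + 1) → (Fin m ⊕ Fin m → F)) = p.1.1
            exact Fin.init_snoc _ _)
          (by
            show (Fin.snoc p.1.1 p.1.2 : Fin (k + 1) → (Fin m ⊕ Fin m → F)) (Fin.last k) = p.1.2
            exact Fin.snoc_last _ _)) }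
    have e2 : {p : (Fin k → (Fin m ⊕ Fin m → F)) × (Fin m ⊕ Fin m → F) // p.1 ∈ tiFr m k F ∧
          ((∀ i, Cfsg.sympForm m F (p.1 i) p.2 = 0) ∧
            p.2 ∉ Submodule.span F (Set.range p.1))} ≃
        (Σ v : ↥(tiFr m k F), {x : Fin m ⊕ Fin m → F //
          (∀ i, Cfsg.sympForm m F (v.1 i) x = 0) ∧ x ∉ Submodule.span F (Set.range v.1)}) :=
      { toFun := fun p => ⟨⟨p.1.1, p.2.1⟩, ⟨p.1.2, p.2.2⟩⟩
        invFun := fun s => ⟨(s.1.1, s.2.1), ⟨s.1.2, s.2.2⟩⟩
        left_inv := fun p => rfl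
        right_inv := fun s => rfl }
    haveI : Fintype ↥(tiFr m k F) := Fintype.ofFinite _
    rw [Nat.card_congr (e1.trans e2), Nat.card_sigma,
      Finset.sum_congr rfl (fun v _ => tiFr_fiber m k v.1 v.2), Finset.sum_const, smul_eq_mul,
      Finset.card_univ, ← Nat.card_eq_fintype_card, ih, Finset.prod_range_succ]

theorem orbit_preimage_card {G Y : Type*} [Group G] [Finite G] [MulAction G Y] [Finite Y]
    (X S : Set Y) (hSX : S ⊆ X) (x0 : Y) (hx0 : x0 ∈ X)
    (hinv : ∀ g : G, ∀ x ∈ X, g • x ∈ X) (htr : ∀ x ∈ X, ∀ y ∈ X, ∃ g : G, g • x = y) :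
    Nat.card {g : G // g • x0 ∈ S} * Nat.card X = Nat.card S * Nat.card G := by
  classical
  have key : ∀ T : Set Y, T ⊆ X → Nat.card {g : G // g • x0 ∈ T}
      = Nat.card T * Nat.card (MulAction.stabilizer G x0) := by
    intro T hT
    have e : {g : G // g • x0 ∈ T} ≃ (Σ t : T, {g : G // g • x0 = t.1}) :=
      { toFun := fun g => ⟨⟨g.1 • x0, g.2⟩, ⟨g.1, rfl⟩⟩
        invFun := fun s => ⟨s.2.1, by rw [s.2.2]; exact s.1.2⟩
        left_inv := fun g => rfl
        right_inv := fun s => by
          obtain ⟨⟨t, ht⟩, ⟨g, hg⟩⟩ := s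
          dsimp only at hg
          subst hg
          rfl }
    have hf : ∀ t : T, Nat.card {g : G // g • x0 = t.1}
        = Nat.card (MulAction.stabilizer G x0) := by
      intro t
      obtain ⟨h, hh⟩ := htr x0 hx0 t.1 (hT t.2)
      exact Nat.card_congr
        { toFun := fun g => ⟨h⁻¹ * g.1, by
            rw [MulAction.mem_stabilizer_iff, mul_smul, g.2, ← hh, inv_smul_smul]⟩
          invFun := fun s => ⟨h * s.1, by
            rw [mul_smul, MulAction.mem_stabilizer_iff.1 s.2, hh]⟩
          left_inv := fun g => Subtype.ext (mul_inv_cancel_left _ _)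
          right_inv := fun s => Subtype.ext (inv_mul_cancel_left _ _) }
    haveI : Fintype T := Fintype.ofFinite _
    rw [Nat.card_congr e, Nat.card_sigma, Finset.sum_congr rfl (fun t _ => hf t),
      Finset.sum_const, smul_eq_mul, Finset.card_univ, ← Nat.card_eq_fintype_card]
  have h1 := key S hSX
  have h2 := key X (le_refl _)
  have h3 : Nat.card {g : G // g • x0 ∈ X} = Nat.card G :=
    Nat.card_congr (Equiv.subtypeUnivEquiv (fun g => hinv g x0 hx0))
  rw [h3] at h2
  rw [h1, h2]
  ring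

theorem sp_stab_ti_card [Fintype F] (m k : ℕ) (W : Submodule F (Fin m ⊕ Fin m → F))
    (hWk : Module.finrank F W = k)
    (hW : ∀ u ∈ W, ∀ v ∈ W, Cfsg.sympForm m F u v = 0) :
    Nat.card ↥(Cfsg.stabilizing (Cfsg.spToMat m F) (W : Set (Fin m ⊕ Fin m → F))) *
      ∏ i ∈ Finset.range k, (Fintype.card F ^ (2 * m - i) - Fintype.card F ^ i)
    = (∏ i : Fin k, (Fintype.card F ^ k - Fintype.card F ^ (i : ℕ))) *
      Nat.card (Matrix.symplecticGroup (Fin m) F) := by
  classical
  letI := spActFr m k F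
  have hsmul : ∀ (g : Matrix.symplecticGroup (Fin m) F) (v : Fin k → (Fin m ⊕ Fin m → F))
      (i : Fin k), (g • v) i = (g : Matrix (Fin m ⊕ Fin m) (Fin m ⊕ Fin m) F) *ᵥ v i :=
    fun _ _ _ => rfl
  have hinj : ∀ g : Matrix.symplecticGroup (Fin m) F, Function.Injective
      (fun x : Fin m ⊕ Fin m → F => (g : Matrix (Fin m ⊕ Fin m) (Fin m ⊕ Fin m) F) *ᵥ x) :=
    fun g => Function.LeftInverse.injective (sp_inv_mulVec g)
  have hinv : ∀ g : Matrix.symplecticGroup (Fin m) F, ∀ v ∈ tiFr m k F, g • v ∈ tiFr m k F := by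
    intro g v hv
    refine ⟨?_, fun i j => ?_⟩
    · have := hv.1.map' (Matrix.toLin' (g : Matrix (Fin m ⊕ Fin m) (Fin m ⊕ Fin m) F))
        (LinearMap.ker_eq_bot.2 (by
          intro x y hxy
          rw [Matrix.toLin'_apply, Matrix.toLin'_apply] at hxy
          exact hinj g hxy))
      have h' : g • v = (Matrix.toLin' (g : Matrix (Fin m ⊕ Fin m) (Fin m ⊕ Fin m) F)) ∘ v := by
        funext i
        rw [hsmul, Function.comp_apply, Matrix.toLin'_apply]
      rw [h']
      exact this
    · rw [hsmul, hsmul, sp_preserves]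
      exact hv.2 i j
  have htr : ∀ v ∈ tiFr m k F, ∀ w ∈ tiFr m k F,
      ∃ g : Matrix.symplecticGroup (Fin m) F, g • v = w := by
    intro v hv w hw
    obtain ⟨A, hA⟩ := sp_frames_trans m v w hv.1 hw.1 hv.2 hw.2
    exact ⟨A, funext fun i => (hsmul A v i).trans (hA i)⟩
  obtain ⟨b⟩ : Nonempty (Module.Basis (Fin k) F W) := ⟨Module.finBasisOfFinrankEq F W hWk⟩
  have hv0 : (fun i => (b i : Fin m ⊕ Fin m → F)) ∈ tiFr m k F :=
    ⟨b.linearIndependent.map' W.subtype W.ker_subtype, fun i j => hW _ (b i).2 _ (b j).2⟩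
  have hspan : Submodule.span F (Set.range (fun i => (b i : Fin m ⊕ Fin m → F))) = W := by
    have := congrArg (Submodule.map W.subtype) b.span_eq
    rw [Submodule.map_span, Submodule.map_subtype_top, ← Set.range_comp] at this
    exact this
  have key := orbit_preimage_card (G := Matrix.symplecticGroup (Fin m) F) (tiFr m k F)
    {v | v ∈ tiFr m k F ∧ ∀ i, v i ∈ W} (fun v hv => hv.1)
    (fun i => (b i : Fin m ⊕ Fin m → F)) hv0 hinv htr
  have hS : Nat.card ↥{v : Fin k → (Fin m ⊕ Fin m → F) | v ∈ tiFr m k F ∧ ∀ i, v i ∈ W}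
      = ∏ i : Fin k, (Fintype.card F ^ k - Fintype.card F ^ (i : ℕ)) := by
    have e : ↥{v : Fin k → (Fin m ⊕ Fin m → F) | v ∈ tiFr m k F ∧ ∀ i, v i ∈ W} ≃
        {s : Fin k → W // LinearIndependent F s} :=
      { toFun := fun v => ⟨fun i => ⟨v.1 i, v.2.2 i⟩,
          LinearIndependent.of_comp W.subtype v.2.1.1⟩
        invFun := fun s => ⟨fun i => (s.1 i : Fin m ⊕ Fin m → F),
          ⟨s.2.map' W.subtype W.ker_subtype, fun i j => hW _ (s.1 i).2 _ (s.1 j).2⟩,
          fun i => (s.1 i).2⟩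
        left_inv := fun v => rfl
        right_inv := fun s => rfl }
    rw [Nat.card_congr e, card_linearIndependent (le_of_eq hWk.symm), hWk]
  have hG : Nat.card {g : Matrix.symplecticGroup (Fin m) F //
        g • (fun i => (b i : Fin m ⊕ Fin m → F)) ∈
          {v : Fin k → (Fin m ⊕ Fin m → F) | v ∈ tiFr m k F ∧ ∀ i, v i ∈ W}}
      = Nat.card ↥(Cfsg.stabilizing (Cfsg.spToMat m F) (W : Set (Fin m ⊕ Fin m → F))) := by
    refine Nat.card_congr (Equiv.subtypeEquivRight (fun g => ?_))
    constructor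
    · rintro ⟨-, h2⟩
      have h3 : ∀ x ∈ W, (g : Matrix (Fin m ⊕ Fin m) (Fin m ⊕ Fin m) F) *ᵥ x ∈ W := by
        intro x hx
        rw [← hspan] at hx
        have h4 : Submodule.span F (Set.range (fun i => (b i : Fin m ⊕ Fin m → F))) ≤
            Submodule.comap (Matrix.toLin' (g : Matrix (Fin m ⊕ Fin m) (Fin m ⊕ Fin m) F)) W := by
          rw [Submodule.span_le]
          rintro _ ⟨i, rfl⟩
          show Matrix.toLin' (g : Matrix (Fin m ⊕ Fin m) (Fin m ⊕ Fin m) F) (b i) ∈ W
          rw [Matrix.toLin'_apply]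
          exact h2 i
        have h5 := h4 hx
        rw [Submodule.mem_comap, Matrix.toLin'_apply] at h5
        exact h5
      intro x
      constructor
      · exact h3 x
      · intro hgx
        have hinj' : Function.Injective (fun y : W =>
            (⟨(g : Matrix (Fin m ⊕ Fin m) (Fin m ⊕ Fin m) F) *ᵥ y.1, h3 y.1 y.2⟩ : W)) := by
          intro y z hyz
          exact Subtype.ext (hinj g (congrArg Subtype.val hyz))
        obtain ⟨y, hy⟩ := (Finite.injective_iff_surjective.1 hinj') ⟨_, hgx⟩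
        have h6 := hinj g (congrArg Subtype.val hy)
        rw [← h6]
        exact y.2
    · intro hg
      exact ⟨hinv g _ hv0, fun i => (hg _).1 (b i).2⟩
  rw [hG, tiFr_card, hS] at key
  exact key

end Cfsg.Agent.Helper6
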