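import Mathlib
import Cfsg.Agent.Helper6.SpSylC

set_option autoImplicit false

namespace Cfsg.Agent.H6SpSyl

open scoped commutatorElement

/-- The elements of `T` whose square lies in the derived subgroup of `T`. -/
def sqSub {G : Type*} [Group G] (T : Subgroup G) : Subgroup G where
  carrier := {x | x ∈ T ∧ x * x ∈ ⁅T, T⁆}
  one_mem' := ⟨one_mem _, by rw [mul_one]; exact one_mem _⟩
  mul_mem' := by
    rintro x y ⟨hx, hx2⟩ ⟨hy, hy2⟩
    refine ⟨mul_mem hx hy, ?_⟩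
    have h1 : x * y * (x * y) = x * x * ⁅x⁻¹, y⁆ * (y * y) := by
      rw [commutatorElement_def]; group
    rw [h1]
    exact mul_mem (mul_mem hx2 (Subgroup.commutator_mem_commutator (inv_mem hx) hy)) hy2
  inv_mem' := by
    rintro x ⟨hx, hx2⟩
    refine ⟨inv_mem hx, ?_⟩
    have h1 : x⁻¹ * x⁻¹ = (x * x)⁻¹ := by group
    rw [h1]; exact inv_mem hx2

theorem sq_sup {G : Type*} [Group G] (A B : Subgroup G)
    (hA : ∀ x ∈ A, x * x ∈ ⁅A, A⁆) (hB : ∀ x ∈ B, x * x ∈ ⁅B, B⁆) :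
    ∀ x ∈ A ⊔ B, x * x ∈ ⁅A ⊔ B, A ⊔ B⁆ := by
  have h1 : A ⊔ B ≤ sqSub (A ⊔ B) := by
    apply sup_le
    · intro x hx
      exact ⟨le_sup_left (a := A) (b := B) hx,
        Subgroup.commutator_mono le_sup_left le_sup_left (hA x hx)⟩
    · intro x hx
      exact ⟨le_sup_right (a := A) (b := B) hx,
        Subgroup.commutator_mono le_sup_right le_sup_right (hB x hx)⟩
  intro x hx
  exact (h1 hx).2

theorem sq_map {G H : Type*} [Group G] [Group H] (f : G →* H) (A : Subgroup G)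
    (hA : ∀ x ∈ A, x * x ∈ ⁅A, A⁆) : ∀ x ∈ A.map f, x * x ∈ ⁅A.map f, A.map f⁆ := by
  rintro _ ⟨y, hy, rfl⟩
  rw [← Subgroup.map_commutator, ← map_mul]
  exact Subgroup.mem_map_of_mem f (hA y hy)

theorem card_sup {G : Type*} [Group G] [Finite G] (A B : Subgroup G) (a b : ℕ)
    (hA : Nat.card A = 2 ^ a) (hB : Nat.card B = 2 ^ b)
    (hN : ∀ y ∈ B, ∀ x ∈ A, y * x * y⁻¹ ∈ A) (hint : ∀ c, c ∈ A → c ∈ B → c = 1)
    (hv : padicValNat 2 (Nat.card G) = a + b) :
    Nat.card (A ⊔ B : Subgroup G) = 2 ^ (a + b) := by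
  classical
  haveI : Fact (Nat.Prime 2) := ⟨Nat.prime_two⟩
  have hAp : IsPGroup 2 A := IsPGroup.of_card hA
  have hBp : IsPGroup 2 B := IsPGroup.of_card hB
  have hN' : B ≤ Subgroup.normalizer (A : Set G) := by
    intro y hy
    apply mem_normalizer_of_conj
    · exact hN y hy
    · intro x hx
      have h1 := hN y⁻¹ (inv_mem hy) x hx
      rwa [inv_inv] at h1
  have hTp : IsPGroup 2 (A ⊔ B : Subgroup G) := IsPGroup.to_sup_of_normal_left' hAp hBp hN'
  have hcardle : Nat.card A * Nat.card B ≤ Nat.card (A ⊔ B : Subgroup G) := by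
    rw [← Nat.card_prod]
    apply Nat.card_le_card_of_injective (fun p : A × B =>
      (⟨(p.1 : G) * (p.2 : G), mul_mem (le_sup_left (a := A) (b := B) p.1.2)
        (le_sup_right (a := A) (b := B) p.2.2)⟩ : (A ⊔ B : Subgroup G)))
    rintro ⟨a1, b1⟩ ⟨a2, b2⟩ h
    have h0 : (a1 : G) * b1 = a2 * b2 := congrArg Subtype.val h
    have hc1 : ((a2 : G))⁻¹ * a1 ∈ A := mul_mem (inv_mem a2.2) a1.2
    have hc2 : ((a2 : G))⁻¹ * a1 = (b2 : G) * (b1 : G)⁻¹ := by
      rw [inv_mul_eq_iff_eq_mul, ← mul_assoc, ← h0, mul_inv_cancel_right]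
    have hc3 : ((a2 : G))⁻¹ * a1 ∈ B := by
      rw [hc2]; exact mul_mem b2.2 (inv_mem b1.2)
    have hc4 := hint _ hc1 hc3
    have ha : (a1 : G) = a2 := by
      rw [inv_mul_eq_one] at hc4
      exact hc4.symm
    have hb' : (b1 : G) = b2 := by
      rw [ha] at h0
      exact mul_left_cancel h0
    exact Prod.ext (Subtype.ext ha) (Subtype.ext hb')
  obtain ⟨c, hc⟩ := IsPGroup.iff_card.mp hTp
  have hpos : Nat.card G ≠ 0 := Nat.card_pos.ne'
  have hc1 : a + b ≤ c := by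
    rw [hA, hB, hc, ← pow_add] at hcardle
    exact (Nat.pow_le_pow_iff_right (by norm_num)).mp hcardle
  have hc2 : c ≤ padicValNat 2 (Nat.card G) := by
    rw [← padicValNat_dvd_iff_le hpos, ← hc]
    exact Subgroup.card_subgroup_dvd_card _
  have hc3 : c = a + b := by omega
  rw [hc, hc3]

end Cfsg.Agent.H6SpSyl
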