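import Mathlib
import Cfsg.Agent.Helper6.SpSylD

set_option autoImplicit false

namespace Cfsg.Agent.H6SlSyl

open Matrix

theorem val_finset_prod {α : Type*} (s : Finset α) (f : α → ℕ) (h : ∀ i ∈ s, f i ≠ 0) :
    padicValNat 2 (∏ i ∈ s, f i) = ∑ i ∈ s, padicValNat 2 (f i) := by
  classical
  induction s using Finset.induction_on with
  | empty => simp
  | insert a s ha ih =>
    rw [Finset.prod_insert ha, Finset.sum_insert ha,
      padicValNat.mul (h a (Finset.mem_insert_self a s))
        (Finset.prod_ne_zero_iff.mpr (fun i hi => h i (Finset.mem_insert_of_mem hi))),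
      ih (fun i hi => h i (Finset.mem_insert_of_mem hi))]

theorem val_odd_pow (q : ℕ) (hq : q % 4 = 3) (k : ℕ) :
    padicValNat 2 (q ^ (2 * k + 1) - 1) = 1 := by
  have h1 : q ^ (2 * k + 1) % 4 = 3 := by
    induction k with
    | zero => simpa using hq
    | succ k ih =>
      have h0 : q ^ (2 * (k + 1) + 1) = q ^ (2 * k + 1) * (q * q) := by ring
      rw [h0, Nat.mul_mod, ih, Nat.mul_mod q q, hq]
  have h2 : q ^ (2 * k + 1) - 1 = 2 * ((q ^ (2 * k + 1) - 1) / 2) := by omega
  have h3 : ¬ 2 ∣ (q ^ (2 * k + 1) - 1) / 2 := by omega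
  have h4 : (q ^ (2 * k + 1) - 1) / 2 ≠ 0 := by omega
  rw [h2, padicValNat.mul (by norm_num) h4, padicValNat_self,
    padicValNat.eq_zero_of_not_dvd h3]

theorem val_gl_odd (q : ℕ) (hq : q % 4 = 3) (m : ℕ) :
    ∑ j ∈ Finset.range (2 * m + 1), padicValNat 2 (q ^ (j + 1) - 1) =
      1 + m * (padicValNat 2 (q ^ 2 - 1) + 1) + padicValNat 2 m.factorial := by
  have hodd : Odd q := by rw [Nat.odd_iff]; omega
  have hq1 : 1 < q := by omega
  induction m with
  | zero =>
    have h0 := val_odd_pow q hq 0
    simpa using h0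
  | succ k ih =>
    have e0 : 2 * (k + 1) + 1 = (2 * k + 1) + 1 + 1 := by ring
    have e1 : padicValNat 2 (q ^ (2 * k + 1 + 1) - 1) =
        padicValNat 2 (q ^ 2 - 1) + padicValNat 2 (k + 1) := by
      have h0 := Cfsg.Agent.H6SpSyl.lte q hodd hq1 (k + 1) (by omega)
      rw [show 2 * k + 1 + 1 = 2 * (k + 1) by ring]
      exact h0
    have e2 : padicValNat 2 (q ^ (2 * k + 1 + 1 + 1) - 1) = 1 := by
      have h0 := val_odd_pow q hq (k + 1)
      rw [show 2 * k + 1 + 1 + 1 = 2 * (k + 1) + 1 by ring]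
      exact h0
    rw [e0, Finset.sum_range_succ, Finset.sum_range_succ, ih, e1, e2, Nat.factorial_succ,
      padicValNat.mul (by omega) (Nat.factorial_ne_zero k)]
    ring

theorem val_gl {F : Type*} [Field F] [Fintype F] (hF : Odd (Fintype.card F)) (n : ℕ) :
    padicValNat 2 (Nat.card (GL (Fin n) F)) =
      ∑ j ∈ Finset.range n, padicValNat 2 (Fintype.card F ^ (j + 1) - 1) := by
  have hq1 : 1 < Fintype.card F := Fintype.one_lt_card
  have hx : ¬ 2 ∣ Fintype.card F := by
    rcases hF with ⟨k, hk⟩; omega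
  rw [Matrix.card_GL_field,
    Fin.prod_univ_eq_prod_range (fun i => Fintype.card F ^ n - Fintype.card F ^ i) n]
  have hne : ∀ i ∈ Finset.range n, Fintype.card F ^ n - Fintype.card F ^ i ≠ 0 := by
    intro i hi
    have hi' : i < n := Finset.mem_range.mp hi
    have h0 : Fintype.card F ^ i < Fintype.card F ^ n := Nat.pow_lt_pow_right hq1 hi'
    omega
  rw [val_finset_prod _ _ hne]
  refine (Finset.sum_range_reflect
    (fun i => padicValNat 2 (Fintype.card F ^ n - Fintype.card F ^ i)) n).symm.trans ?_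
  apply Finset.sum_congr rfl
  intro j hj
  have hj' : j < n := Finset.mem_range.mp hj
  show padicValNat 2 (Fintype.card F ^ n - Fintype.card F ^ (n - 1 - j)) =
    padicValNat 2 (Fintype.card F ^ (j + 1) - 1)
  have h1 : Fintype.card F ^ n - Fintype.card F ^ (n - 1 - j) =
      Fintype.card F ^ (n - 1 - j) * (Fintype.card F ^ (j + 1) - 1) := by
    rw [mul_tsub, mul_one, ← pow_add]
    congr 2
    omega
  have h2 : Fintype.card F ^ (j + 1) - 1 ≠ 0 := by
    have h0 : 1 < Fintype.card F ^ (j + 1) := Nat.one_lt_pow (by omega) hq1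
    omega
  rw [h1, padicValNat.mul (pow_ne_zero _ (by omega)) h2, padicValNat.pow,
    padicValNat.eq_zero_of_not_dvd hx, mul_zero, zero_add]

theorem card_gl_sl {n : Type*} [Fintype n] [DecidableEq n] [Nonempty n] {F : Type*} [Field F]
    [Fintype F] :
    Nat.card (GL n F) = Nat.card (Matrix.SpecialLinearGroup n F) * (Fintype.card F - 1) := by
  classical
  have h1 := Subgroup.card_eq_card_quotient_mul_card_subgroup
    (Matrix.GeneralLinearGroup.det (n := n) (R := F)).ker
  have h2 : Nat.card (GL n F ⧸ (Matrix.GeneralLinearGroup.det (n := n) (R := F)).ker) =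
      Fintype.card F - 1 := by
    rw [Nat.card_congr (QuotientGroup.quotientKerEquivOfSurjective _
      Matrix.GeneralLinearGroup.det_surjective).toEquiv, Nat.card_units,
      Nat.card_eq_fintype_card]
  have h3 : Nat.card (Matrix.GeneralLinearGroup.det (n := n) (R := F)).ker =
      Nat.card (Matrix.SpecialLinearGroup n F) := by
    have h0 : (Matrix.GeneralLinearGroup.det (n := n) (R := F)).ker =
        (Matrix.SpecialLinearGroup.toGL (n := n) (R := F)).range := by
      ext A
      constructor
      · intro hA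
        rw [MonoidHom.mem_ker] at hA
        have hA' : (A : Matrix n n F).det = 1 := by
          have h00 := congrArg Units.val hA
          simpa using h00
        exact ⟨⟨(A : Matrix n n F), hA'⟩, Units.ext rfl⟩
      · rintro ⟨B, rfl⟩
        rw [MonoidHom.mem_ker]
        apply Units.ext
        simp
    rw [h0, ← Nat.card_congr
      (MonoidHom.ofInjective Matrix.SpecialLinearGroup.toGL_injective).toEquiv]
  rw [h1, h2, h3, mul_comm]

/-- Reindexing `SL`. -/
def slReindex {ι κ : Type*} [Fintype ι] [DecidableEq ι] [Fintype κ] [DecidableEq κ]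
    {F : Type*} [CommRing F] (e : ι ≃ κ) :
    Matrix.SpecialLinearGroup ι F ≃* Matrix.SpecialLinearGroup κ F where
  toFun A := ⟨Matrix.reindex e e A.1, by rw [Matrix.det_reindex_self]; exact A.2⟩
  invFun A := ⟨Matrix.reindex e.symm e.symm A.1, by rw [Matrix.det_reindex_self]; exact A.2⟩
  left_inv A := by
    apply Subtype.ext
    show Matrix.reindex e.symm e.symm (Matrix.reindex e e A.1) = A.1
    simp
  right_inv A := by
    apply Subtype.ext
    show Matrix.reindex e e (Matrix.reindex e.symm e.symm A.1) = A.1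
    simp
  map_mul' A B := by
    apply Subtype.ext
    show Matrix.reindex e e (A.1 * B.1) = Matrix.reindex e e A.1 * Matrix.reindex e e B.1
    simp only [Matrix.reindex_apply]
    rw [Matrix.submatrix_mul_equiv]

theorem val_sl {F : Type*} [Field F] [Fintype F] (hq : Fintype.card F % 4 = 3) (m : ℕ) :
    padicValNat 2 (Nat.card (Matrix.SpecialLinearGroup (Fin (2 * m + 1)) F)) =
      m * padicValNat 2 (Nat.card (GL (Fin 2) F)) + padicValNat 2 m.factorial := by
  have hF : Odd (Fintype.card F) := by rw [Nat.odd_iff]; omega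
  have hq1 : 1 < Fintype.card F := Fintype.one_lt_card
  have h1 := card_gl_sl (n := Fin (2 * m + 1)) (F := F)
  have h2 := val_gl hF (2 * m + 1)
  rw [val_gl_odd _ hq m] at h2
  have h3 := val_gl hF 2
  rw [Finset.sum_range_succ, Finset.sum_range_one] at h3
  have h5 : padicValNat 2 (Fintype.card F - 1) = 1 := by
    simpa using val_odd_pow _ hq 0
  have h4 : padicValNat 2 (Fintype.card F ^ (0 + 1) - 1) = 1 := by
    simpa using h5
  have hpos : Nat.card (Matrix.SpecialLinearGroup (Fin (2 * m + 1)) F) ≠ 0 := Nat.card_pos.ne'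
  have h6 : padicValNat 2 (Nat.card (GL (Fin (2 * m + 1)) F)) =
      padicValNat 2 (Nat.card (Matrix.SpecialLinearGroup (Fin (2 * m + 1)) F)) + 1 := by
    rw [h1, padicValNat.mul hpos (by omega), h5]
  rw [h4] at h3
  have h7 : Fintype.card F ^ (1 + 1) = Fintype.card F ^ 2 := rfl
  rw [h7] at h3
  rw [h6] at h2
  rw [h3]
  have h8 : m * (1 + padicValNat 2 (Fintype.card F ^ 2 - 1)) =
      m * (padicValNat 2 (Fintype.card F ^ 2 - 1) + 1) := by ring
  rw [h8]
  omega

end Cfsg.Agent.H6SlSyl
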