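import Mathlib
import Cfsg.Agent.Helper6.SpSylD

set_option autoImplicit false

namespace Cfsg.Agent.H6SlSyl

open scoped commutatorElement

open Matrix

theorem field_keyD {F : Type*} [Field F] (δ p q r s a b c d : F) (hx : p * s - q * r = δ)
    (hy : a * d - b * c = δ) (ht : a + d = p + s) (h1 : q * c = b * r)
    (h2 : p * b + q * d = a * q + b * s) (h3 : r * a + s * c = c * p + d * r)
    (h4 : (p + s) ^ 2 ≠ 4 * δ) :
    (a = p ∧ b = q ∧ c = r ∧ d = s) ∨ (a = s ∧ b = -q ∧ c = -r ∧ d = p) := by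
  have E11 : (a - p) * (a - s) + (b - q) * (c + r) = 0 := by
    linear_combination hx - hy - h1 + a * ht
  have E12 : (a - p) * (b + q) + (b - q) * (d - p) = 0 := by
    linear_combination -h2 + b * ht
  have E21 : (c - r) * (a - s) + (d - s) * (c + r) = 0 := by
    linear_combination -h3 + c * ht
  have E22 : (c - r) * (b + q) + (d - s) * (d - p) = 0 := by
    linear_combination hx - hy + h1 + d * ht
  have hsum : ((a - p) * (d - s) - (b - q) * (c - r)) +
      ((a - s) * (d - p) - (b + q) * (c + r)) = 4 * δ - (p + s) ^ 2 := by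
    linear_combination 2 * hx + 2 * hy - (p + s) * ht
  by_cases hu : (a - p) * (d - s) - (b - q) * (c - r) = 0
  · have hw : (a - s) * (d - p) - (b + q) * (c + r) ≠ 0 := by
      intro hw
      apply h4
      rw [hu, hw] at hsum
      linear_combination hsum
    left
    have e1 : ((a - s) * (d - p) - (b + q) * (c + r)) * (a - p) = 0 := by
      linear_combination (d - p) * E11 - (c + r) * E12
    have e2 : ((a - s) * (d - p) - (b + q) * (c + r)) * (b - q) = 0 := by
      linear_combination -(b + q) * E11 + (a - s) * E12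
    have e3 : ((a - s) * (d - p) - (b + q) * (c + r)) * (c - r) = 0 := by
      linear_combination (d - p) * E21 - (c + r) * E22
    have e4 : ((a - s) * (d - p) - (b + q) * (c + r)) * (d - s) = 0 := by
      linear_combination -(b + q) * E21 + (a - s) * E22
    exact ⟨sub_eq_zero.mp ((mul_eq_zero.mp e1).resolve_left hw),
      sub_eq_zero.mp ((mul_eq_zero.mp e2).resolve_left hw),
      sub_eq_zero.mp ((mul_eq_zero.mp e3).resolve_left hw),
      sub_eq_zero.mp ((mul_eq_zero.mp e4).resolve_left hw)⟩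
  · right
    have e1 : ((a - p) * (d - s) - (b - q) * (c - r)) * (a - s) = 0 := by
      linear_combination (d - s) * E11 - (b - q) * E21
    have e2 : ((a - p) * (d - s) - (b - q) * (c - r)) * (b + q) = 0 := by
      linear_combination (d - s) * E12 - (b - q) * E22
    have e3 : ((a - p) * (d - s) - (b - q) * (c - r)) * (c + r) = 0 := by
      linear_combination -(c - r) * E11 + (a - p) * E21
    have e4 : ((a - p) * (d - s) - (b - q) * (c - r)) * (d - p) = 0 := by
      linear_combination -(c - r) * E12 + (a - p) * E22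
    exact ⟨sub_eq_zero.mp ((mul_eq_zero.mp e1).resolve_left hu),
      eq_neg_of_add_eq_zero_left ((mul_eq_zero.mp e2).resolve_left hu),
      eq_neg_of_add_eq_zero_left ((mul_eq_zero.mp e3).resolve_left hu),
      sub_eq_zero.mp ((mul_eq_zero.mp e4).resolve_left hu)⟩

theorem ext2f {F : Type*} (A B : Matrix (Fin 2) (Fin 2) F) (h11 : A 0 0 = B 0 0)
    (h12 : A 0 1 = B 0 1) (h21 : A 1 0 = B 1 0) (h22 : A 1 1 = B 1 1) : A = B := by
  ext i j
  fin_cases i <;> fin_cases j <;> assumption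

theorem mul2f {F : Type*} [Field F] (A B : Matrix (Fin 2) (Fin 2) F) (i j : Fin 2) :
    (A * B) i j = A i 0 * B 0 j + A i 1 * B 1 j := by
  rw [Matrix.mul_apply, Fin.sum_univ_two]

theorem mat_keyD {F : Type*} [Field F] (X Y : Matrix (Fin 2) (Fin 2) F)
    (hdet : Y.det = X.det) (htr : Y.trace = X.trace) (hM : X * Y = Y * X)
    (h4 : X.trace ^ 2 ≠ 4 * X.det) :
    Y = X ∨ Y * X = X.det • (1 : Matrix (Fin 2) (Fin 2) F) := by
  rw [Matrix.det_fin_two, Matrix.det_fin_two] at hdet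
  rw [Matrix.trace_fin_two, Matrix.trace_fin_two] at htr
  rw [Matrix.trace_fin_two, Matrix.det_fin_two] at h4
  have c11 := congrFun (congrFun hM 0) 0
  have c12 := congrFun (congrFun hM 0) 1
  have c21 := congrFun (congrFun hM 1) 0
  rw [mul2f, mul2f] at c11 c12 c21
  rcases field_keyD (X 0 0 * X 1 1 - X 0 1 * X 1 0) _ _ _ _ _ _ _ _ rfl hdet htr
    (by linear_combination c11) c12 c21 h4 with ⟨e1, e2, e3, e4⟩ | ⟨e1, e2, e3, e4⟩
  · left
    exact ext2f _ _ e1 e2 e3 e4
  · right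
    rw [Matrix.det_fin_two]
    apply ext2f
    · rw [mul2f, e1, e2, Matrix.smul_apply, Matrix.one_apply_eq, smul_eq_mul]; ring
    · rw [mul2f, e1, e2, Matrix.smul_apply, Matrix.one_apply_ne (by decide), smul_eq_mul]; ring
    · rw [mul2f, e3, e4, Matrix.smul_apply, Matrix.one_apply_ne (by decide), smul_eq_mul]; ring
    · rw [mul2f, e3, e4, Matrix.smul_apply, Matrix.one_apply_eq, smul_eq_mul]; ring

theorem mat_unipf {F : Type*} [Field F] (h2F : (2 : F) ≠ 0)
    (X : Matrix (Fin 2) (Fin 2) F)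
    (hX : X 0 0 * X 1 1 -
      X 0 1 * X 1 0 = 1)
    (h4 : (X 0 0 + X 1 1) ^ 2 = 4)
    (k : ℕ) (hk : (X * X) ^ (2 ^ k) = 1) : X * X = 1 := by
  set N : Matrix (Fin 2) (Fin 2) F :=
    (X 0 0 + X 1 1) • X - (2 : F) • 1 with hN
  have hMM : X * X = 1 + N := by
    apply ext2f
    · rw [mul2f, hN]
      simp only [Matrix.add_apply, Matrix.sub_apply, Matrix.smul_apply, smul_eq_mul,
        Matrix.one_apply_eq]
      linear_combination -hX
    · rw [mul2f, hN]
      simp only [Matrix.add_apply, Matrix.sub_apply, Matrix.smul_apply, smul_eq_mul,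
        Matrix.one_apply_ne (by decide : (0 : Fin 2) ≠ 1)]
      ring
    · rw [mul2f, hN]
      simp only [Matrix.add_apply, Matrix.sub_apply, Matrix.smul_apply, smul_eq_mul,
        Matrix.one_apply_ne (by decide : (1 : Fin 2) ≠ 0)]
      ring
    · rw [mul2f, hN]
      simp only [Matrix.add_apply, Matrix.sub_apply, Matrix.smul_apply, smul_eq_mul,
        Matrix.one_apply_eq]
      linear_combination -hX
  have hNN : N * N = 0 := by
    apply ext2f
    · rw [mul2f, hN]
      simp only [Matrix.sub_apply, Matrix.smul_apply, smul_eq_mul,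
        Matrix.one_apply_eq, Matrix.one_apply_ne (by decide : (0 : Fin 2) ≠ 1),
        Matrix.one_apply_ne (by decide : (1 : Fin 2) ≠ 0), Matrix.zero_apply]
      linear_combination (X 0 0 ^ 2 +
        X 0 1 * X 1 0) * h4 - 4 * hX
    · rw [mul2f, hN]
      simp only [Matrix.sub_apply, Matrix.smul_apply, smul_eq_mul,
        Matrix.one_apply_eq, Matrix.one_apply_ne (by decide : (0 : Fin 2) ≠ 1),
        Matrix.one_apply_ne (by decide : (1 : Fin 2) ≠ 0), Matrix.zero_apply]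
      linear_combination ((X 0 0 + X 1 1) *
        X 0 1) * h4
    · rw [mul2f, hN]
      simp only [Matrix.sub_apply, Matrix.smul_apply, smul_eq_mul,
        Matrix.one_apply_eq, Matrix.one_apply_ne (by decide : (0 : Fin 2) ≠ 1),
        Matrix.one_apply_ne (by decide : (1 : Fin 2) ≠ 0), Matrix.zero_apply]
      linear_combination ((X 0 0 + X 1 1) *
        X 1 0) * h4
    · rw [mul2f, hN]
      simp only [Matrix.sub_apply, Matrix.smul_apply, smul_eq_mul,
        Matrix.one_apply_eq, Matrix.one_apply_ne (by decide : (0 : Fin 2) ≠ 1),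
        Matrix.one_apply_ne (by decide : (1 : Fin 2) ≠ 0), Matrix.zero_apply]
      linear_combination (X 1 1 ^ 2 +
        X 0 1 * X 1 0) * h4 - 4 * hX
  have hpow : ∀ m : ℕ, (X * X) ^ m = 1 + (m : F) • N := by
    intro m
    induction m with
    | zero => simp
    | succ m ih =>
      rw [pow_succ, ih, hMM, mul_add, mul_one, add_mul, one_mul, Matrix.smul_mul, hNN,
        smul_zero, add_zero, Nat.cast_succ, add_smul, one_smul, add_assoc]
  have h5 := hpow (2 ^ k)
  rw [hk] at h5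
  have h6 : (1 : Matrix (Fin 2) (Fin 2) F) + ((2 ^ k : ℕ) : F) • N = 1 + 0 := by
    rw [add_zero]; exact h5.symm
  have h7 : ((2 ^ k : ℕ) : F) • N = 0 := add_left_cancel h6
  have h8 : ((2 ^ k : ℕ) : F) ≠ 0 := by
    rw [Nat.cast_pow, Nat.cast_ofNat]
    exact pow_ne_zero k h2F
  have h9 : N = 0 := (smul_eq_zero.mp h7).resolve_left h8
  rw [hMM, h9, add_zero]


theorem sq_one_of_two_pow {F : Type*} [Field F] [Fintype F] (hq : Fintype.card F % 4 = 3)
    (c : F) (hc : c ≠ 0) (k : ℕ) (h : c ^ (2 ^ k) = 1) : c = 1 ∨ c = -1 := by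
  have h1 : c ^ (Fintype.card F - 1) = 1 := FiniteField.pow_card_sub_one_eq_one c hc
  have h2 : c ^ (Nat.gcd (2 ^ k) (Fintype.card F - 1)) = 1 := pow_gcd_eq_one.mpr ⟨h, h1⟩
  have h3 : Nat.gcd (2 ^ k) (Fintype.card F - 1) ∣ 2 := by
    obtain ⟨j, hj, hj2⟩ := (Nat.dvd_prime_pow Nat.prime_two).mp
      (Nat.gcd_dvd_left (2 ^ k) (Fintype.card F - 1))
    have h4 : 2 ^ j ∣ Fintype.card F - 1 := hj2 ▸ Nat.gcd_dvd_right (2 ^ k) (Fintype.card F - 1)
    rw [hj2]
    have h5 : j ≤ 1 := by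
      by_contra hcon
      push_neg at hcon
      have h43 : (4 : ℕ) ∣ 2 ^ j := by
        have h0 := pow_dvd_pow 2 hcon
        norm_num at h0
        exact h0
      have h44 := h43.trans h4
      omega
    exact (pow_dvd_pow 2 h5).trans (by norm_num)
  have h6 : c ^ 2 = 1 := by
    obtain ⟨e, he⟩ := h3
    rw [he, pow_mul, h2, one_pow]
  have h7 : (c - 1) * (c + 1) = 0 := by linear_combination h6
  rcases mul_eq_zero.mp h7 with h | h
  · left; linear_combination h
  · right; linear_combination h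

theorem two_ne_zero' {F : Type*} [Field F] [Fintype F] (hq : Fintype.card F % 4 = 3) :
    (2 : F) ≠ 0 :=
  Cfsg.Agent.H6SpSyl.two_ne_zero_of_odd (by rw [Nat.odd_iff]; omega)

theorem neg_one_not_sq {F : Type*} [Field F] [Fintype F] (hq : Fintype.card F % 4 = 3)
    (a : F) : a ^ 2 ≠ -1 := by
  intro h
  have h2F : (2 : F) ≠ 0 := two_ne_zero' hq
  have ha : a ≠ 0 := by
    rintro rfl
    apply h2F
    linear_combination 2 * h
  have h4 : a ^ (2 ^ 2) = 1 := by
    have h0 : a ^ (2 ^ 2) = (a ^ 2) ^ 2 := by ring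
    rw [h0, h]; ring
  rcases sq_one_of_two_pow hq a ha 2 h4 with h' | h'
  · rw [h'] at h
    apply h2F
    linear_combination h
  · rw [h'] at h
    apply h2F
    linear_combination h

theorem gl2_nc {F : Type*} [Field F] [Fintype F] (hq : Fintype.card F % 4 = 3)
    (Q : Subgroup (GL (Fin 2) F)) (hQp : IsPGroup 2 Q) (hz : (-1 : GL (Fin 2) F) ∈ ⁅Q, Q⁆)
    (x : GL (Fin 2) F) (hx : x ∈ Q) (hnc : ∃ b ∈ Q, b * x ≠ x * b) : x * x ∈ ⁅Q, Q⁆ := by
  classical
  haveI : Fact (Nat.Prime 2) := ⟨Nat.prime_two⟩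
  haveI : Group.IsNilpotent ↥Q := hQp.isNilpotent
  have h2F : (2 : F) ≠ 0 := two_ne_zero' hq
  obtain ⟨b, hb, hbx⟩ := hnc
  let x' : ↥Q := ⟨x, hx⟩
  let H : Subgroup ↥Q := Subgroup.centralizer {x'}
  have hH : H < ⊤ := by
    rw [lt_top_iff_ne_top]
    intro h
    have h1 : (⟨b, hb⟩ : ↥Q) ∈ H := by rw [h]; exact Subgroup.mem_top _
    rw [Subgroup.mem_centralizer_iff] at h1
    have h2 := h1 x' (Set.mem_singleton _)
    exact hbx (congrArg Subtype.val h2).symm
  have hN := Group.normalizerCondition_of_isNilpotent (G := ↥Q) H hH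
  obtain ⟨g, hgN, hgH⟩ := SetLike.exists_of_lt hN
  have hxH : x' ∈ H := by
    rw [Subgroup.mem_centralizer_iff]
    intro h hh
    rw [Set.mem_singleton_iff] at hh
    rw [hh]
  have hyH : g * x' * g⁻¹ ∈ H := (Subgroup.mem_normalizer_iff.mp hgN x').mp hxH
  have hcomm' : x' * (g * x' * g⁻¹) = (g * x' * g⁻¹) * x' := by
    rw [Subgroup.mem_centralizer_iff] at hyH
    exact hyH x' (Set.mem_singleton _)
  have hne' : g * x' * g⁻¹ ≠ x' := by
    intro h
    apply hgH
    rw [Subgroup.mem_centralizer_iff]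
    intro h' hh
    rw [Set.mem_singleton_iff] at hh
    rw [hh]
    rw [mul_inv_eq_iff_eq_mul] at h
    exact h.symm
  have hggQ : (g : GL (Fin 2) F) ∈ Q := g.2
  have hcomm : x * ((g : GL (Fin 2) F) * x * (g : GL (Fin 2) F)⁻¹) =
      ((g : GL (Fin 2) F) * x * (g : GL (Fin 2) F)⁻¹) * x := congrArg Subtype.val hcomm'
  have hne : (g : GL (Fin 2) F) * x * (g : GL (Fin 2) F)⁻¹ ≠ x := fun h => hne' (Subtype.ext h)
  generalize (g : GL (Fin 2) F) = gg at hggQ hcomm hne
  obtain ⟨k, hk⟩ := hQp ⟨x, hx⟩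
  have hk1 : x ^ (2 ^ k) = 1 := congrArg Subtype.val hk
  have hdk : (x : Matrix (Fin 2) (Fin 2) F).det ^ (2 ^ k) = 1 := by
    have h0 := congrArg (fun y : GL (Fin 2) F => (y : Matrix (Fin 2) (Fin 2) F).det) hk1
    simpa using h0
  have hd0 : (x : Matrix (Fin 2) (Fin 2) F).det ≠ 0 :=
    ((Matrix.isUnit_iff_isUnit_det _).mp x.isUnit).ne_zero
  have hG : (gg : Matrix (Fin 2) (Fin 2) F).det *
      ((gg⁻¹ : GL (Fin 2) F) : Matrix (Fin 2) (Fin 2) F).det = 1 := by
    rw [← Matrix.det_mul, ← Units.val_mul, mul_inv_cancel, Units.val_one, Matrix.det_one]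
  have hYdet : ((gg * x * gg⁻¹ : GL (Fin 2) F) : Matrix (Fin 2) (Fin 2) F).det =
      (x : Matrix (Fin 2) (Fin 2) F).det := by
    rw [Units.val_mul, Units.val_mul, Matrix.det_mul, Matrix.det_mul]
    linear_combination (x : Matrix (Fin 2) (Fin 2) F).det * hG
  have hYtr : ((gg * x * gg⁻¹ : GL (Fin 2) F) : Matrix (Fin 2) (Fin 2) F).trace =
      (x : Matrix (Fin 2) (Fin 2) F).trace := by
    rw [Units.val_mul, Units.val_mul, Matrix.trace_mul_comm, ← Matrix.mul_assoc,
      ← Units.val_mul, inv_mul_cancel, Units.val_one, Matrix.one_mul]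
  have hM : (x : Matrix (Fin 2) (Fin 2) F) *
      ((gg * x * gg⁻¹ : GL (Fin 2) F) : Matrix (Fin 2) (Fin 2) F) =
      ((gg * x * gg⁻¹ : GL (Fin 2) F) : Matrix (Fin 2) (Fin 2) F) * x :=
    congrArg Units.val hcomm
  by_cases h4 : (x : Matrix (Fin 2) (Fin 2) F).trace ^ 2 = 4 * (x : Matrix (Fin 2) (Fin 2) F).det
  · rcases sq_one_of_two_pow hq _ hd0 k hdk with hd | hd
    · have hx2 : x * x = 1 := by
        apply Units.ext
        rw [Units.val_mul, Units.val_one]
        obtain ⟨k2, hk2⟩ := hQp ⟨x * x, mul_mem hx hx⟩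
        have hk3 : (x * x) ^ (2 ^ k2) = 1 := congrArg Subtype.val hk2
        have hk4 : ((x : Matrix (Fin 2) (Fin 2) F) * x) ^ (2 ^ k2) = 1 := by
          have h0 := congrArg Units.val hk3
          simpa using h0
        apply mat_unipf h2F _ ?_ ?_ k2 hk4
        · rw [← Matrix.det_fin_two]; exact hd
        · rw [← Matrix.trace_fin_two, h4, hd]; ring
      rw [hx2]
      exact one_mem _
    · exfalso
      rw [hd] at h4
      apply neg_one_not_sq hq ((x : Matrix (Fin 2) (Fin 2) F).trace / 2)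
      field_simp
      linear_combination h4
  · have hc : ⁅gg, x⁆ ∈ ⁅Q, Q⁆ := Subgroup.commutator_mem_commutator hggQ hx
    rcases mat_keyD _ _ hYdet hYtr hM h4 with h | h
    · exact absurd (Units.ext h) hne
    · rcases sq_one_of_two_pow hq _ hd0 k hdk with hd | hd
      · have hyx : gg * x * gg⁻¹ * x = 1 := by
          apply Units.ext
          rw [Units.val_mul, h, hd, one_smul, Units.val_one]
        have h5 : ⁅gg, x⁆ = (x * x)⁻¹ := by
          rw [commutatorElement_def, eq_inv_of_mul_eq_one_left hyx]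
          group
        rw [h5] at hc
        exact inv_mem_iff.mp hc
      · have hyx : gg * x * gg⁻¹ * x = -1 := by
          apply Units.ext
          rw [Units.val_mul, h, hd, Units.val_neg, Units.val_one, neg_one_smul]
        have h5 : ⁅gg, x⁆ = (-1 : GL (Fin 2) F) * (x * x)⁻¹ := by
          rw [commutatorElement_def]
          have h0 : gg * x * gg⁻¹ = -1 * x⁻¹ := by rw [← hyx]; group
          rw [h0]; group
        have h6 : (x * x)⁻¹ = (-1 : GL (Fin 2) F)⁻¹ * ⁅gg, x⁆ := by rw [h5]; group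
        have h7 : (x * x)⁻¹ ∈ ⁅Q, Q⁆ := by
          rw [h6]; exact mul_mem (inv_mem hz) hc
        exact inv_mem_iff.mp h7

theorem gl2_sq {F : Type*} [Field F] [Fintype F] (hq : Fintype.card F % 4 = 3)
    (Q : Subgroup (GL (Fin 2) F)) (hQp : IsPGroup 2 Q) (hz : (-1 : GL (Fin 2) F) ∈ ⁅Q, Q⁆)
    (hna : ∃ a ∈ Q, ∃ b ∈ Q, a * b ≠ b * a) : ∀ x ∈ Q, x * x ∈ ⁅Q, Q⁆ := by
  intro x hx
  by_cases hc : ∃ b ∈ Q, b * x ≠ x * b
  · exact gl2_nc hq Q hQp hz x hx hc
  · push_neg at hc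
    obtain ⟨a, ha, b, hb, hab⟩ := hna
    have h1 : (x * a) * (x * a) ∈ ⁅Q, Q⁆ := by
      apply gl2_nc hq Q hQp hz (x * a) (mul_mem hx ha)
      refine ⟨b, hb, ?_⟩
      intro h
      apply hab
      have h2 := hc b hb
      rw [← mul_assoc, h2, mul_assoc, mul_assoc] at h
      exact (mul_left_cancel h).symm
    have h2 : a * a ∈ ⁅Q, Q⁆ := by
      apply gl2_nc hq Q hQp hz a ha
      exact ⟨b, hb, fun h => hab h.symm⟩
    have h3 : x * x = (x * a) * (x * a) * (a * a)⁻¹ := by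
      have h4 := hc a ha
      rw [mul_assoc x a (x * a), ← mul_assoc a x a, h4]
      group
    rw [h3]
    exact mul_mem h1 (inv_mem h2)

/-- Monomial matrices with entries `±1`. -/
def mono {F : Type*} [Field F] (A : Matrix (Fin 2) (Fin 2) F) : Prop :=
  (A 0 1 = 0 ∧ A 1 0 = 0 ∧ A 0 0 ^ 2 = 1 ∧ A 1 1 ^ 2 = 1) ∨
    (A 0 0 = 0 ∧ A 1 1 = 0 ∧ A 0 1 ^ 2 = 1 ∧ A 1 0 ^ 2 = 1)

theorem mono_mul {F : Type*} [Field F] (A B : Matrix (Fin 2) (Fin 2) F) (hA : mono A)
    (hB : mono B) : mono (A * B) := by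
  rcases hA with ⟨a1, a2, a3, a4⟩ | ⟨a1, a2, a3, a4⟩ <;>
    rcases hB with ⟨b1, b2, b3, b4⟩ | ⟨b1, b2, b3, b4⟩
  · refine Or.inl ⟨?_, ?_, ?_, ?_⟩ <;> simp [mul2f, mul_pow, a1, a2, a3, a4, b1, b2, b3, b4]
  · refine Or.inr ⟨?_, ?_, ?_, ?_⟩ <;> simp [mul2f, mul_pow, a1, a2, a3, a4, b1, b2, b3, b4]
  · refine Or.inr ⟨?_, ?_, ?_, ?_⟩ <;> simp [mul2f, mul_pow, a1, a2, a3, a4, b1, b2, b3, b4]
  · refine Or.inl ⟨?_, ?_, ?_, ?_⟩ <;> simp [mul2f, mul_pow, a1, a2, a3, a4, b1, b2, b3, b4]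

theorem mono_sq {F : Type*} [Field F] (A : Matrix (Fin 2) (Fin 2) F) (hA : mono A) :
    ∃ c : F, c ^ 2 = 1 ∧ A * A = c • (1 : Matrix (Fin 2) (Fin 2) F) := by
  rcases hA with ⟨a1, a2, a3, a4⟩ | ⟨a1, a2, a3, a4⟩
  · refine ⟨1, one_pow 2, ?_⟩
    apply ext2f
    · rw [mul2f, a1, one_smul, Matrix.one_apply_eq]; linear_combination a3
    · rw [mul2f, a1, one_smul, Matrix.one_apply_ne (by decide)]; ring
    · rw [mul2f, a2, one_smul, Matrix.one_apply_ne (by decide)]; ring
    · rw [mul2f, a2, one_smul, Matrix.one_apply_eq]; linear_combination a4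
  · refine ⟨A 0 1 * A 1 0, by rw [mul_pow, a3, a4, one_mul], ?_⟩
    apply ext2f
    · rw [mul2f, a1, Matrix.smul_apply, Matrix.one_apply_eq, smul_eq_mul]; ring
    · rw [mul2f, a1, a2, Matrix.smul_apply, Matrix.one_apply_ne (by decide), smul_eq_mul]; ring
    · rw [mul2f, a1, a2, Matrix.smul_apply, Matrix.one_apply_ne (by decide), smul_eq_mul]; ring
    · rw [mul2f, a2, Matrix.smul_apply, Matrix.one_apply_eq, smul_eq_mul]; ring

/-- The rotation by a quarter turn. -/
def gi (F : Type*) [Field F] : GL (Fin 2) F :=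
  ⟨!![0, -1; 1, 0], !![0, 1; -1, 0],
    by ext i j; fin_cases i <;> fin_cases j <;> simp [Matrix.mul_apply, Fin.sum_univ_two],
    by ext i j; fin_cases i <;> fin_cases j <;> simp [Matrix.mul_apply, Fin.sum_univ_two]⟩

/-- A reflection. -/
def gr (F : Type*) [Field F] : GL (Fin 2) F :=
  ⟨!![1, 0; 0, -1], !![1, 0; 0, -1],
    by ext i j; fin_cases i <;> fin_cases j <;> simp [Matrix.mul_apply, Fin.sum_univ_two],
    by ext i j; fin_cases i <;> fin_cases j <;> simp [Matrix.mul_apply, Fin.sum_univ_two]⟩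

theorem gr_gi {F : Type*} [Field F] : gr F * gi F = -1 * (gi F * gr F) := by
  apply Units.ext
  show (!![1, 0; 0, -1] : Matrix (Fin 2) (Fin 2) F) * !![0, -1; 1, 0] =
    -1 * (!![0, -1; 1, 0] * !![1, 0; 0, -1])
  ext i j
  fin_cases i <;> fin_cases j <;> simp [Matrix.mul_apply, Fin.sum_univ_two]

theorem exists_sylow_gl2_sq {F : Type*} [Field F] [Fintype F] (hq : Fintype.card F % 4 = 3) :
    ∃ Q : Sylow 2 (GL (Fin 2) F), ∀ x ∈ (Q : Subgroup (GL (Fin 2) F)),
      x * x ∈ ⁅(Q : Subgroup (GL (Fin 2) F)), (Q : Subgroup (GL (Fin 2) F))⁆ := by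
  classical
  have h2F : (2 : F) ≠ 0 := two_ne_zero' hq
  have hH : IsPGroup 2 (Subgroup.closure ({gi F, gr F} : Set (GL (Fin 2) F))) := by
    have key : ∀ y : GL (Fin 2) F, y ∈ Submonoid.closure ({gi F, gr F} : Set (GL (Fin 2) F)) →
        mono (y : Matrix (Fin 2) (Fin 2) F) := by
      intro y hy
      induction hy using Submonoid.closure_induction with
      | mem y hy =>
        rcases hy with rfl | rfl
        · exact Or.inr ⟨by simp [gi], by simp [gi], by simp [gi], by simp [gi]⟩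
        · exact Or.inl ⟨by simp [gr], by simp [gr], by simp [gr], by simp [gr]⟩
      | one => exact Or.inl ⟨by simp, by simp, by simp, by simp⟩
      | mul a b _ _ ha hb =>
        rw [Units.val_mul]
        exact mono_mul _ _ ha hb
    rintro ⟨h, hh⟩
    have h1 : h ∈ (Subgroup.closure ({gi F, gr F} : Set (GL (Fin 2) F))).toSubmonoid := hh
    rw [Subgroup.closure_toSubmonoid_of_isOfFinOrder (fun y _ => isOfFinOrder_of_finite y)] at h1
    have h2 : mono (h : Matrix (Fin 2) (Fin 2) F) := key h h1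
    obtain ⟨c, hc, hcc⟩ := mono_sq _ h2
    refine ⟨2, Subtype.ext (Units.ext ?_)⟩
    show ((h ^ (2 ^ 2) : GL (Fin 2) F) : Matrix (Fin 2) (Fin 2) F) = 1
    have h3 : (2 : ℕ) ^ 2 = 2 + 2 := by norm_num
    rw [Units.val_pow_eq_pow_val, h3, pow_add, pow_two, hcc, Matrix.smul_mul, Matrix.one_mul,
      smul_smul, ← pow_two, hc, one_smul]
  obtain ⟨Q, hHQ⟩ := hH.exists_le_sylow
  have hiQ : gi F ∈ (Q : Subgroup (GL (Fin 2) F)) :=
    hHQ (Subgroup.subset_closure (Set.mem_insert _ _))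
  have hrQ : gr F ∈ (Q : Subgroup (GL (Fin 2) F)) :=
    hHQ (Subgroup.subset_closure (Set.mem_insert_of_mem _ (Set.mem_singleton _)))
  have hz : (-1 : GL (Fin 2) F) ∈
      ⁅(Q : Subgroup (GL (Fin 2) F)), (Q : Subgroup (GL (Fin 2) F))⁆ := by
    have h1 : ⁅gr F, gi F⁆ = -1 := by
      rw [commutatorElement_def, gr_gi]
      group
    rw [← h1]
    exact Subgroup.commutator_mem_commutator hrQ hiQ
  refine ⟨Q, gl2_sq hq _ Q.isPGroup' hz ⟨gr F, hrQ, gi F, hiQ, ?_⟩⟩
  intro h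
  rw [gr_gi] at h
  have h1 := congrArg (fun y : GL (Fin 2) F => (y : Matrix (Fin 2) (Fin 2) F) 0 1) h
  have h3 : (-1 : F) = 1 := by
    simpa [gi, gr, Matrix.mul_apply, Fin.sum_univ_two] using h1
  apply h2F
  linear_combination -h3

end Cfsg.Agent.H6SlSyl
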