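import Mathlib
import Cfsg.Agent.Helper6.SpSylD

set_option autoImplicit false

namespace Cfsg.Agent.H6SpSyl

open scoped commutatorElement

/-- The base group of the wreath product `Z_2 ≀ S_m` acting on `Fin m × Fin 2`. -/
def wrB (m : ℕ) : (Fin m → Equiv.Perm (Fin 2)) →* Equiv.Perm (Fin m × Fin 2) where
  toFun f := Equiv.prodCongrRight f
  map_one' := by
    apply Equiv.ext
    rintro ⟨i, j⟩
    rfl
  map_mul' f g := by
    apply Equiv.ext
    rintro ⟨i, j⟩
    rfl

/-- The top group of the wreath product `Z_2 ≀ S_m` acting on `Fin m × Fin 2`. -/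
def wrT (m : ℕ) : Equiv.Perm (Fin m) →* Equiv.Perm (Fin m × Fin 2) where
  toFun σ := Equiv.prodCongr σ (Equiv.refl (Fin 2))
  map_one' := by
    apply Equiv.ext
    rintro ⟨i, j⟩
    rfl
  map_mul' f g := by
    apply Equiv.ext
    rintro ⟨i, j⟩
    rfl

theorem wrB_injective (m : ℕ) : Function.Injective (wrB m) := by
  intro f g h
  funext i
  apply Equiv.ext
  intro j
  have h1 := congrArg (fun e : Equiv.Perm (Fin m × Fin 2) => (e (i, j)).2) h
  exact h1

theorem wrT_injective (m : ℕ) : Function.Injective (wrT m) := by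
  intro f g h
  apply Equiv.ext
  intro i
  have h1 := congrArg (fun e : Equiv.Perm (Fin m × Fin 2) => (e (i, 0)).1) h
  exact h1

theorem wrT_wrB (m : ℕ) (σ : Equiv.Perm (Fin m)) (f : Fin m → Equiv.Perm (Fin 2)) :
    wrT m σ * wrB m f = wrB m (fun i => f (σ.symm i)) * wrT m σ := by
  apply Equiv.ext
  rintro ⟨i, j⟩
  show (σ i, f i j) = (σ i, f (σ.symm (σ i)) j)
  rw [Equiv.symm_apply_apply]

theorem wrB_eq_wrT (m : ℕ) (σ : Equiv.Perm (Fin m)) (f : Fin m → Equiv.Perm (Fin 2))
    (h : wrB m f = wrT m σ) : σ = 1 := by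
  apply Equiv.ext
  intro i
  have h1 := congrArg (fun e : Equiv.Perm (Fin m × Fin 2) => (e (i, 0)).1) h
  exact h1.symm

theorem perm_two_sq : ∀ f : Equiv.Perm (Fin 2), f * f = 1 := by decide

theorem wr_card_sq (m : ℕ) (Rm : Subgroup (Equiv.Perm (Fin m)))
    (hcard : Nat.card Rm = 2 ^ padicValNat 2 m.factorial)
    (hsq : ∀ x ∈ Rm, x * x ∈ ⁅Rm, Rm⁆) :
    ∃ W : Subgroup (Equiv.Perm (Fin m × Fin 2)),
      Nat.card W = 2 ^ (m + padicValNat 2 m.factorial) ∧ ∀ x ∈ W, x * x ∈ ⁅W, W⁆ := by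
  classical
  haveI : Fact (Nat.Prime 2) := ⟨Nat.prime_two⟩
  refine ⟨(wrB m).range ⊔ Rm.map (wrT m), ?_, ?_⟩
  · apply card_sup
    · rw [← Nat.card_congr (MonoidHom.ofInjective (wrB_injective m)).toEquiv, Nat.card_fun,
        Nat.card_perm, Nat.card_fin, Nat.card_fin, Nat.factorial_two]
    · rw [Subgroup.card_map_of_injective (wrT_injective m), hcard]
    · rintro _ ⟨σ, _, rfl⟩ _ ⟨f, rfl⟩
      rw [wrT_wrB, mul_inv_cancel_right]
      exact ⟨_, rfl⟩
    · rintro _ ⟨f, rfl⟩ ⟨σ, _, hσ⟩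
      have h1 := wrB_eq_wrT m σ f hσ.symm
      rw [← hσ, h1, map_one]
    · rw [Nat.card_perm, Nat.card_prod, Nat.card_fin, Nat.card_fin, mul_comm m 2,
        padicValNat_factorial_mul, add_comm]
  · apply sq_sup
    · rintro _ ⟨f, rfl⟩
      rw [← map_mul]
      have h1 : f * f = 1 := by
        funext i
        exact perm_two_sq (f i)
      rw [h1, map_one]
      exact one_mem _
    · exact sq_map (wrT m) Rm hsq

theorem exists_perm_sq : ∀ n : ℕ, ∃ R : Subgroup (Equiv.Perm (Fin n)),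
    Nat.card R = 2 ^ padicValNat 2 n.factorial ∧ ∀ x ∈ R, x * x ∈ ⁅R, R⁆ := by
  intro n
  induction n using Nat.strong_induction_on with
  | _ n ih =>
    classical
    haveI : Fact (Nat.Prime 2) := ⟨Nat.prime_two⟩
    by_cases hn : n < 2
    · refine ⟨⊥, ?_, ?_⟩
      · have h1 : n.factorial = 1 := by
          interval_cases n <;> rfl
        rw [Subgroup.card_bot, h1, padicValNat_one_right, pow_zero]
      · intro x hx
        rw [Subgroup.mem_bot] at hx
        rw [hx, mul_one]
        exact one_mem _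
    · have hm : n / 2 < n := by omega
      obtain ⟨Rm, hRmcard, hRmsq⟩ := ih (n / 2) hm
      obtain ⟨W, hWcard, hWsq⟩ := wr_card_sq (n / 2) Rm hRmcard hRmsq
      have hle : n / 2 * 2 ≤ n := by omega
      let g : Fin (n / 2) × Fin 2 → Fin n := fun p => Fin.castLE hle (finProdFinEquiv p)
      have hg : Function.Injective g := by
        intro p p' h
        exact finProdFinEquiv.injective (Fin.castLE_injective hle h)
      let e : (Fin (n / 2) × Fin 2) ≃ {x : Fin n // x ∈ Set.range g} := Equiv.ofInjective g hg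
      refine ⟨W.map (Equiv.Perm.extendDomainHom e), ?_, sq_map _ W hWsq⟩
      rw [Subgroup.card_map_of_injective (Equiv.Perm.extendDomainHom_injective e), hWcard]
      congr 1
      have hn2 : n = 2 * (n / 2) + n % 2 := by omega
      have e1 : n.factorial = (2 * (n / 2) + n % 2).factorial := by rw [← hn2]
      rw [e1, padicValNat_factorial_mul_add (n / 2) (Nat.mod_lt _ (by norm_num)),
        padicValNat_factorial_mul, add_comm]

end Cfsg.Agent.H6SpSyl
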