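import Mathlib
import Cfsg.Agent.Helper6.SpSylD
import Cfsg.Agent.Helper6.SpSylF
import Cfsg.Agent.Helper6.SlSylA
import Cfsg.Agent.Helper6.SlSylB

set_option autoImplicit false

namespace Cfsg.Agent.H6SlSyl

open scoped commutatorElement

open Matrix

open Cfsg.Agent.H6SpSyl (sq_sup sq_map card_sup exists_perm_sq)

/-- The index type of the block decomposition `2m + 1 = 2 + ⋯ + 2 + 1`. -/
abbrev Idx (m : ℕ) := (Fin 2 × Fin m) ⊕ Fin 1

variable {F : Type*} [Field F] {m : ℕ}

/-- Block matrix `diag(G_1, …, G_m, c)`. -/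
def bmat (G : Fin m → Matrix (Fin 2) (Fin 2) F) (c : F) : Matrix (Idx m) (Idx m) F :=
  Matrix.fromBlocks (Matrix.blockDiagonal G) 0 0 (Matrix.diagonal fun _ => c)

theorem bmat_det (G : Fin m → Matrix (Fin 2) (Fin 2) F) (c : F) :
    (bmat G c).det = (∏ k, (G k).det) * c := by
  rw [bmat, Matrix.det_fromBlocks_zero₂₁, Matrix.det_blockDiagonal, Matrix.det_diagonal]
  simp

theorem bmat_mul (G G' : Fin m → Matrix (Fin 2) (Fin 2) F) (c c' : F) :
    bmat G c * bmat G' c' = bmat (fun k => G k * G' k) (c * c') := by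
  rw [bmat, bmat, bmat, Matrix.fromBlocks_multiply, Matrix.blockDiagonal_mul]
  simp [Matrix.diagonal_mul_diagonal]

theorem bmat_one : bmat (fun _ : Fin m => (1 : Matrix (Fin 2) (Fin 2) F)) 1 = 1 := by
  rw [bmat]
  have h1 : (fun _ : Fin m => (1 : Matrix (Fin 2) (Fin 2) F)) = 1 := rfl
  rw [h1, Matrix.blockDiagonal_one, Matrix.diagonal_one, Matrix.fromBlocks_one]

/-- The block-diagonal embedding of `GL_2^m` into `SL_{2m+1}`. -/
def betaHom (F : Type*) [Field F] (m : ℕ) :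
    (Fin m → GL (Fin 2) F) →* Matrix.SpecialLinearGroup (Idx m) F where
  toFun g := ⟨bmat (fun k => (g k : Matrix (Fin 2) (Fin 2) F))
      (∏ k, (g k : Matrix (Fin 2) (Fin 2) F).det)⁻¹, by
    rw [bmat_det]
    exact mul_inv_cancel₀ (Finset.prod_ne_zero_iff.mpr
      (fun k _ => ((Matrix.isUnit_iff_isUnit_det _).mp (g k).isUnit).ne_zero))⟩
  map_one' := by
    apply Subtype.ext
    have e1 : (fun k : Fin m => (((1 : Fin m → GL (Fin 2) F) k : GL (Fin 2) F) :
        Matrix (Fin 2) (Fin 2) F)) = fun _ => 1 := rfl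
    have e2 : (∏ k : Fin m, (((1 : Fin m → GL (Fin 2) F) k : GL (Fin 2) F) :
        Matrix (Fin 2) (Fin 2) F).det)⁻¹ = 1 := by simp
    show bmat (fun k : Fin m => (((1 : Fin m → GL (Fin 2) F) k : GL (Fin 2) F) :
        Matrix (Fin 2) (Fin 2) F)) (∏ k : Fin m, (((1 : Fin m → GL (Fin 2) F) k : GL (Fin 2) F) :
        Matrix (Fin 2) (Fin 2) F).det)⁻¹ = 1
    rw [e1, e2, bmat_one]
  map_mul' g h := by
    apply Subtype.ext
    show bmat (fun k => (((g * h) k : GL (Fin 2) F) : Matrix (Fin 2) (Fin 2) F))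
        (∏ k, (((g * h) k : GL (Fin 2) F) : Matrix (Fin 2) (Fin 2) F).det)⁻¹ =
      bmat (fun k => (g k : Matrix (Fin 2) (Fin 2) F))
        (∏ k, (g k : Matrix (Fin 2) (Fin 2) F).det)⁻¹ *
      bmat (fun k => (h k : Matrix (Fin 2) (Fin 2) F))
        (∏ k, (h k : Matrix (Fin 2) (Fin 2) F).det)⁻¹
    rw [bmat_mul]
    congr 1
    rw [← mul_inv, ← Finset.prod_mul_distrib]
    congr 1
    apply Finset.prod_congr rfl
    intro k _
    show ((g k * h k : GL (Fin 2) F) : Matrix (Fin 2) (Fin 2) F).det = _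
    rw [Units.val_mul, Matrix.det_mul]

theorem betaHom_injective : Function.Injective (betaHom F m) := by
  intro g h hgh
  have h0 : bmat (fun k => (g k : Matrix (Fin 2) (Fin 2) F))
      (∏ k, (g k : Matrix (Fin 2) (Fin 2) F).det)⁻¹ =
      bmat (fun k => (h k : Matrix (Fin 2) (Fin 2) F))
      (∏ k, (h k : Matrix (Fin 2) (Fin 2) F).det)⁻¹ := congrArg Subtype.val hgh
  rw [bmat, bmat, Matrix.fromBlocks_inj] at h0
  have h1 := Matrix.blockDiagonal_injective h0.1
  funext k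
  exact Units.ext (congrFun h1 k)

/-- The permutation of the index type induced by a permutation of the blocks. -/
def piHom (m : ℕ) : Equiv.Perm (Fin m) →* Equiv.Perm (Idx m) where
  toFun σ := Equiv.Perm.sumCongr (Equiv.prodCongrRight fun _ : Fin 2 => σ) (1 : Equiv.Perm (Fin 1))
  map_one' := by
    apply Equiv.ext
    rintro (⟨b, k⟩ | j) <;> rfl
  map_mul' σ ρ := by
    apply Equiv.ext
    rintro (⟨b, k⟩ | j) <;> rfl

theorem piHom_inl (σ : Equiv.Perm (Fin m)) (b : Fin 2) (k : Fin m) :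
    piHom m σ (Sum.inl (b, k)) = Sum.inl (b, σ k) := rfl

theorem piHom_inr (σ : Equiv.Perm (Fin m)) (j : Fin 1) :
    piHom m σ (Sum.inr j) = Sum.inr j := rfl

theorem piHom_sign (σ : Equiv.Perm (Fin m)) : Equiv.Perm.sign (piHom m σ) = 1 := by
  show Equiv.Perm.sign (Equiv.Perm.sumCongr (Equiv.prodCongrRight fun _ : Fin 2 => σ)
    (1 : Equiv.Perm (Fin 1))) = 1
  rw [Equiv.Perm.sign_sumCongr, Equiv.Perm.sign_prodCongrRight, Equiv.Perm.sign_one, mul_one,
    Finset.prod_const, Finset.card_univ, Fintype.card_fin]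
  exact Int.units_sq _

/-- The permutation-matrix embedding of `S_m` into `SL_{2m+1}`. -/
def tauHom (F : Type*) [Field F] (m : ℕ) :
    Equiv.Perm (Fin m) →* Matrix.SpecialLinearGroup (Idx m) F where
  toFun σ := ⟨Matrix.permMatrixHom (R := F) (piHom m σ), by
    show ((piHom m σ)⁻¹.permMatrix F).det = 1
    rw [Matrix.det_permutation, Equiv.Perm.sign_inv, piHom_sign]
    simp⟩
  map_one' := by
    apply Subtype.ext
    show Matrix.permMatrixHom (R := F) (piHom m 1) = 1
    rw [map_one, map_one]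
  map_mul' σ ρ := by
    apply Subtype.ext
    show Matrix.permMatrixHom (R := F) (piHom m (σ * ρ)) =
      Matrix.permMatrixHom (R := F) (piHom m σ) * Matrix.permMatrixHom (R := F) (piHom m ρ)
    rw [map_mul, map_mul]

theorem tau_beta (σ : Equiv.Perm (Fin m)) (g : Fin m → GL (Fin 2) F) :
    tauHom F m σ * betaHom F m g = betaHom F m (fun k => g (σ.symm k)) * tauHom F m σ := by
  apply Subtype.ext
  show ((piHom m σ)⁻¹.toPEquiv.toMatrix : Matrix (Idx m) (Idx m) F) *
      bmat (fun k => (g k : Matrix (Fin 2) (Fin 2) F))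
        (∏ k, (g k : Matrix (Fin 2) (Fin 2) F).det)⁻¹ =
    bmat (fun k => (g (σ.symm k) : Matrix (Fin 2) (Fin 2) F))
        (∏ k, (g (σ.symm k) : Matrix (Fin 2) (Fin 2) F).det)⁻¹ *
      ((piHom m σ)⁻¹.toPEquiv.toMatrix : Matrix (Idx m) (Idx m) F)
  have hprod : (∏ k, (g (σ.symm k) : Matrix (Fin 2) (Fin 2) F).det) =
      ∏ k, (g k : Matrix (Fin 2) (Fin 2) F).det :=
    Equiv.prod_comp σ.symm (fun k => (g k : Matrix (Fin 2) (Fin 2) F).det)
  rw [hprod, PEquiv.toMatrix_toPEquiv_mul, PEquiv.mul_toMatrix_toPEquiv]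
  ext i j
  simp only [Matrix.submatrix_apply, id_eq]
  have hinv : ∀ x, (piHom m σ)⁻¹ x = piHom m σ⁻¹ x := fun x => by rw [map_inv]
  have hsymm : ∀ x, (piHom m σ)⁻¹.symm x = piHom m σ x := fun x => rfl
  rw [hinv, hsymm]
  rcases i with ⟨b, k⟩ | u <;> rcases j with ⟨b', k'⟩ | u'
  · rw [piHom_inl, piHom_inl, bmat, bmat, Matrix.fromBlocks_apply₁₁, Matrix.fromBlocks_apply₁₁,
      Matrix.blockDiagonal_apply', Matrix.blockDiagonal_apply']
    by_cases hk : k = σ k'
    · subst hk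
      simp
    · have hk2 : σ⁻¹ k ≠ k' := fun h => hk (by rw [← h]; simp)
      rw [if_neg hk2, if_neg hk]
  · simp only [piHom_inl, piHom_inr, bmat, Matrix.fromBlocks_apply₁₂, Matrix.zero_apply]
  · simp only [piHom_inl, piHom_inr, bmat, Matrix.fromBlocks_apply₂₁, Matrix.zero_apply]
  · simp only [piHom_inr, bmat, Matrix.fromBlocks_apply₂₂]

theorem beta_eq_tau (σ : Equiv.Perm (Fin m)) (g : Fin m → GL (Fin 2) F)
    (h : betaHom F m g = tauHom F m σ) : σ = 1 := by
  have h0 : bmat (fun k => (g k : Matrix (Fin 2) (Fin 2) F))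
      (∏ k, (g k : Matrix (Fin 2) (Fin 2) F).det)⁻¹ =
      ((piHom m σ)⁻¹.toPEquiv.toMatrix : Matrix (Idx m) (Idx m) F) := congrArg Subtype.val h
  apply Equiv.ext
  intro k
  by_contra hk
  have hk' : ¬ σ k = k := hk
  have h1 := congrFun (congrFun h0 (Sum.inl (0, σ k))) (Sum.inl (0, k))
  have h2 : (piHom m σ)⁻¹ (Sum.inl ((0 : Fin 2), σ k)) = Sum.inl ((0 : Fin 2), k) := by
    rw [← map_inv, piHom_inl]
    simp
  rw [bmat, Matrix.fromBlocks_apply₁₁, Matrix.blockDiagonal_apply', if_neg hk',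
    PEquiv.toMatrix_apply, Equiv.toPEquiv_apply, h2] at h1
  simp at h1

theorem tauHom_injective : Function.Injective (tauHom F m) := by
  rw [injective_iff_map_eq_one]
  intro σ hσ
  apply beta_eq_tau (F := F) σ 1
  rw [map_one, hσ]

/-- Some Sylow `2`-subgroup of `SL_{2m+1}(F)` (`|F| ≡ 3 mod 4`) has all squares in its derived
subgroup. -/
theorem exists_sylow_sq_sl {F : Type*} [Field F] [Fintype F] (hq : Fintype.card F % 4 = 3)
    (m : ℕ) :
    ∃ T : Sylow 2 (Matrix.SpecialLinearGroup (Fin (2 * m + 1)) F),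
      ∀ x ∈ (T : Subgroup (Matrix.SpecialLinearGroup (Fin (2 * m + 1)) F)),
        x * x ∈ ⁅(T : Subgroup (Matrix.SpecialLinearGroup (Fin (2 * m + 1)) F)),
          (T : Subgroup (Matrix.SpecialLinearGroup (Fin (2 * m + 1)) F))⁆ := by
  classical
  haveI : Fact (Nat.Prime 2) := ⟨Nat.prime_two⟩
  obtain ⟨Q, hQsq⟩ := exists_sylow_gl2_sq hq
  obtain ⟨R, hRcard, hRsq⟩ := exists_perm_sq m
  set w := padicValNat 2 (Nat.card (GL (Fin 2) F)) with hw
  have hQcard : Nat.card (Q : Subgroup (GL (Fin 2) F)) = 2 ^ w := by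
    rw [Sylow.card_eq_multiplicity, Nat.factorization_def _ Nat.prime_two]
  have hpiQcard : Nat.card (Subgroup.pi Set.univ
      (fun _ : Fin m => (Q : Subgroup (GL (Fin 2) F)))) = 2 ^ (m * w) := by
    have e : (Subgroup.pi Set.univ (fun _ : Fin m => (Q : Subgroup (GL (Fin 2) F)))) ≃
        (Fin m → ↥(Q : Subgroup (GL (Fin 2) F))) :=
      { toFun := fun f i => ⟨f.1 i, f.2 i (Set.mem_univ i)⟩
        invFun := fun f => ⟨fun i => (f i : GL (Fin 2) F), fun i _ => (f i).2⟩
        left_inv := fun f => rfl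
        right_inv := fun f => rfl }
    rw [Nat.card_congr e, Nat.card_fun, hQcard, Nat.card_fin, ← pow_mul, mul_comm]
  have hpiQsq : ∀ g ∈ Subgroup.pi Set.univ (fun _ : Fin m => (Q : Subgroup (GL (Fin 2) F))),
      g * g ∈ ⁅Subgroup.pi Set.univ (fun _ : Fin m => (Q : Subgroup (GL (Fin 2) F))),
        Subgroup.pi Set.univ (fun _ : Fin m => (Q : Subgroup (GL (Fin 2) F)))⁆ := by
    intro g hg
    rw [Subgroup.commutator_pi_pi_of_finite]
    intro i _
    exact hQsq (g i) (hg i (Set.mem_univ i))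
  have hconj : ∀ (σ : Equiv.Perm (Fin m)) (g : Fin m → GL (Fin 2) F),
      tauHom F m σ * betaHom F m g * (tauHom F m σ)⁻¹ = betaHom F m (fun k => g (σ.symm k)) := by
    intro σ g
    rw [tau_beta, mul_inv_cancel_right]
  have e : Idx m ≃ Fin (2 * m + 1) := Fintype.equivFinOfCardEq (by simp)
  have hcardSL : Nat.card (Matrix.SpecialLinearGroup (Idx m) F) =
      Nat.card (Matrix.SpecialLinearGroup (Fin (2 * m + 1)) F) :=
    Nat.card_congr (slReindex (F := F) e).toEquiv
  have hT0card : Nat.card (((Subgroup.pi Set.univ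
      (fun _ : Fin m => (Q : Subgroup (GL (Fin 2) F)))).map (betaHom F m)) ⊔
        R.map (tauHom F m) : Subgroup (Matrix.SpecialLinearGroup (Idx m) F)) =
      2 ^ (m * w + padicValNat 2 m.factorial) := by
    apply card_sup
    · rw [Subgroup.card_map_of_injective betaHom_injective, hpiQcard]
    · rw [Subgroup.card_map_of_injective tauHom_injective, hRcard]
    · rintro _ ⟨σ, _, rfl⟩ _ ⟨g, hg, rfl⟩
      rw [hconj]
      exact Subgroup.mem_map_of_mem _ (fun i _ => hg (σ.symm i) (Set.mem_univ _))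
    · rintro _ ⟨g, _, rfl⟩ ⟨σ, _, hσ⟩
      have h1 := beta_eq_tau σ g hσ.symm
      rw [← hσ, h1, map_one]
    · rw [hcardSL, val_sl hq m]
  have hφinj : Function.Injective (slReindex (F := F) e).toMonoidHom :=
    (slReindex (F := F) e).injective
  have hT1card : Nat.card ((((Subgroup.pi Set.univ
      (fun _ : Fin m => (Q : Subgroup (GL (Fin 2) F)))).map (betaHom F m)) ⊔
        R.map (tauHom F m) : Subgroup (Matrix.SpecialLinearGroup (Idx m) F)).map
          (slReindex (F := F) e).toMonoidHom) =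
      2 ^ (Nat.card (Matrix.SpecialLinearGroup (Fin (2 * m + 1)) F)).factorization 2 := by
    rw [Subgroup.card_map_of_injective hφinj, hT0card, Nat.factorization_def _ Nat.prime_two,
      val_sl hq m]
  refine ⟨Sylow.ofCard _ hT1card, ?_⟩
  rw [Sylow.coe_ofCard]
  apply sq_map
  apply sq_sup
  · exact sq_map _ _ hpiQsq
  · exact sq_map _ R hRsq

end Cfsg.Agent.H6SlSyl
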