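import Mathlib
import Cfsg.Agent.Helper6.SpSylA
import Cfsg.Agent.Helper6.SpSylB
import Cfsg.Agent.Helper22.SpDer2

set_option autoImplicit false

namespace Cfsg.Agent.H6SpSyl

open scoped commutatorElement

open Matrix

theorem field_key {F : Type*} [Field F] (p q r s a b c d : F) (hx : p * s - q * r = 1)
    (hy : a * d - b * c = 1) (ht : a + d = p + s) (h1 : q * c = b * r)
    (h2 : p * b + q * d = a * q + b * s) (h3 : r * a + s * c = c * p + d * r)
    (h4 : (p + s) ^ 2 ≠ 4) :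
    (a = p ∧ b = q ∧ c = r ∧ d = s) ∨ (a = s ∧ b = -q ∧ c = -r ∧ d = p) := by
  have E11 : (a - p) * (a - s) + (b - q) * (c + r) = 0 := by
    linear_combination hx - hy - h1 + a * ht
  have E12 : (a - p) * (b + q) + (b - q) * (d - p) = 0 := by
    linear_combination -h2 + b * ht
  have E21 : (c - r) * (a - s) + (d - s) * (c + r) = 0 := by
    linear_combination -h3 + c * ht
  have E22 : (c - r) * (b + q) + (d - s) * (d - p) = 0 := by
    linear_combination hx - hy + h1 + d * ht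
  have hsum : ((a - p) * (d - s) - (b - q) * (c - r)) +
      ((a - s) * (d - p) - (b + q) * (c + r)) = 4 - (p + s) ^ 2 := by
    linear_combination 2 * hx + 2 * hy - (p + s) * ht
  by_cases hu : (a - p) * (d - s) - (b - q) * (c - r) = 0
  · have hw : (a - s) * (d - p) - (b + q) * (c + r) ≠ 0 := by
      intro hw
      apply h4
      rw [hu, hw] at hsum
      linear_combination hsum
    left
    have e1 : ((a - s) * (d - p) - (b + q) * (c + r)) * (a - p) = 0 := by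
      linear_combination (d - p) * E11 - (c + r) * E12
    have e2 : ((a - s) * (d - p) - (b + q) * (c + r)) * (b - q) = 0 := by
      linear_combination -(b + q) * E11 + (a - s) * E12
    have e3 : ((a - s) * (d - p) - (b + q) * (c + r)) * (c - r) = 0 := by
      linear_combination (d - p) * E21 - (c + r) * E22
    have e4 : ((a - s) * (d - p) - (b + q) * (c + r)) * (d - s) = 0 := by
      linear_combination -(b + q) * E21 + (a - s) * E22
    exact ⟨sub_eq_zero.mp ((mul_eq_zero.mp e1).resolve_left hw),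
      sub_eq_zero.mp ((mul_eq_zero.mp e2).resolve_left hw),
      sub_eq_zero.mp ((mul_eq_zero.mp e3).resolve_left hw),
      sub_eq_zero.mp ((mul_eq_zero.mp e4).resolve_left hw)⟩
  · right
    have e1 : ((a - p) * (d - s) - (b - q) * (c - r)) * (a - s) = 0 := by
      linear_combination (d - s) * E11 - (b - q) * E21
    have e2 : ((a - p) * (d - s) - (b - q) * (c - r)) * (b + q) = 0 := by
      linear_combination (d - s) * E12 - (b - q) * E22
    have e3 : ((a - p) * (d - s) - (b - q) * (c - r)) * (c + r) = 0 := by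
      linear_combination -(c - r) * E11 + (a - p) * E21
    have e4 : ((a - p) * (d - s) - (b - q) * (c - r)) * (d - p) = 0 := by
      linear_combination -(c - r) * E12 + (a - p) * E22
    exact ⟨sub_eq_zero.mp ((mul_eq_zero.mp e1).resolve_left hu),
      eq_neg_of_add_eq_zero_left ((mul_eq_zero.mp e2).resolve_left hu),
      eq_neg_of_add_eq_zero_left ((mul_eq_zero.mp e3).resolve_left hu),
      sub_eq_zero.mp ((mul_eq_zero.mp e4).resolve_left hu)⟩

theorem ext2 {F : Type*} (A B : Matrix (Fin 1 ⊕ Fin 1) (Fin 1 ⊕ Fin 1) F)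
    (h11 : A (Sum.inl 0) (Sum.inl 0) = B (Sum.inl 0) (Sum.inl 0))
    (h12 : A (Sum.inl 0) (Sum.inr 0) = B (Sum.inl 0) (Sum.inr 0))
    (h21 : A (Sum.inr 0) (Sum.inl 0) = B (Sum.inr 0) (Sum.inl 0))
    (h22 : A (Sum.inr 0) (Sum.inr 0) = B (Sum.inr 0) (Sum.inr 0)) : A = B := by
  ext i j
  rcases i with i | i <;> rcases j with j | j <;>
    (have hi := Subsingleton.elim i 0; have hj := Subsingleton.elim j 0; subst hi; subst hj;
     assumption)

theorem mul2 {F : Type*} [Field F] (A B : Matrix (Fin 1 ⊕ Fin 1) (Fin 1 ⊕ Fin 1) F)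
    (i j : Fin 1 ⊕ Fin 1) :
    (A * B) i j = A i (Sum.inl 0) * B (Sum.inl 0) j + A i (Sum.inr 0) * B (Sum.inr 0) j := by
  rw [Matrix.mul_apply, Fintype.sum_sum_type]
  simp

theorem trace2 {F : Type*} [Field F] (A : Matrix (Fin 1 ⊕ Fin 1) (Fin 1 ⊕ Fin 1) F) :
    Matrix.trace A = A (Sum.inl 0) (Sum.inl 0) + A (Sum.inr 0) (Sum.inr 0) := by
  rw [Matrix.trace, Fintype.sum_sum_type]
  simp

theorem mat_key {F : Type*} [Field F] (X Y : Matrix (Fin 1 ⊕ Fin 1) (Fin 1 ⊕ Fin 1) F)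
    (hX : X (Sum.inl 0) (Sum.inl 0) * X (Sum.inr 0) (Sum.inr 0) -
      X (Sum.inl 0) (Sum.inr 0) * X (Sum.inr 0) (Sum.inl 0) = 1)
    (hY : Y (Sum.inl 0) (Sum.inl 0) * Y (Sum.inr 0) (Sum.inr 0) -
      Y (Sum.inl 0) (Sum.inr 0) * Y (Sum.inr 0) (Sum.inl 0) = 1)
    (htr : Y (Sum.inl 0) (Sum.inl 0) + Y (Sum.inr 0) (Sum.inr 0) =
      X (Sum.inl 0) (Sum.inl 0) + X (Sum.inr 0) (Sum.inr 0))
    (hM : X * Y = Y * X)
    (h4 : (X (Sum.inl 0) (Sum.inl 0) + X (Sum.inr 0) (Sum.inr 0)) ^ 2 ≠ 4) :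
    Y = X ∨ Y * X = 1 := by
  have c11 := congrFun (congrFun hM (Sum.inl 0)) (Sum.inl 0)
  have c12 := congrFun (congrFun hM (Sum.inl 0)) (Sum.inr 0)
  have c21 := congrFun (congrFun hM (Sum.inr 0)) (Sum.inl 0)
  rw [mul2, mul2] at c11 c12 c21
  rcases field_key _ _ _ _ _ _ _ _ hX hY htr (by linear_combination c11) c12 c21 h4 with
    ⟨e1, e2, e3, e4⟩ | ⟨e1, e2, e3, e4⟩
  · left
    exact ext2 _ _ e1 e2 e3 e4
  · right
    apply ext2
    · rw [mul2, Matrix.one_apply_eq, e1, e2]; linear_combination hX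
    · rw [mul2, Matrix.one_apply_ne Sum.inl_ne_inr, e1, e2]; ring
    · rw [mul2, Matrix.one_apply_ne Sum.inr_ne_inl, e3, e4]; ring
    · rw [mul2, Matrix.one_apply_eq, e3, e4]; linear_combination hX

theorem mat_unip {F : Type*} [Field F] (h2F : (2 : F) ≠ 0)
    (X : Matrix (Fin 1 ⊕ Fin 1) (Fin 1 ⊕ Fin 1) F)
    (hX : X (Sum.inl 0) (Sum.inl 0) * X (Sum.inr 0) (Sum.inr 0) -
      X (Sum.inl 0) (Sum.inr 0) * X (Sum.inr 0) (Sum.inl 0) = 1)
    (h4 : (X (Sum.inl 0) (Sum.inl 0) + X (Sum.inr 0) (Sum.inr 0)) ^ 2 = 4)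
    (k : ℕ) (hk : (X * X) ^ (2 ^ k) = 1) : X * X = 1 := by
  set N : Matrix (Fin 1 ⊕ Fin 1) (Fin 1 ⊕ Fin 1) F :=
    (X (Sum.inl 0) (Sum.inl 0) + X (Sum.inr 0) (Sum.inr 0)) • X - (2 : F) • 1 with hN
  have hMM : X * X = 1 + N := by
    apply ext2
    · rw [mul2, hN]
      simp only [Matrix.add_apply, Matrix.sub_apply, Matrix.smul_apply, smul_eq_mul,
        Matrix.one_apply_eq]
      linear_combination -hX
    · rw [mul2, hN]
      simp only [Matrix.add_apply, Matrix.sub_apply, Matrix.smul_apply, smul_eq_mul,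
        Matrix.one_apply_ne Sum.inl_ne_inr]
      ring
    · rw [mul2, hN]
      simp only [Matrix.add_apply, Matrix.sub_apply, Matrix.smul_apply, smul_eq_mul,
        Matrix.one_apply_ne Sum.inr_ne_inl]
      ring
    · rw [mul2, hN]
      simp only [Matrix.add_apply, Matrix.sub_apply, Matrix.smul_apply, smul_eq_mul,
        Matrix.one_apply_eq]
      linear_combination -hX
  have hNN : N * N = 0 := by
    apply ext2
    · rw [mul2, hN]
      simp only [Matrix.sub_apply, Matrix.smul_apply, smul_eq_mul,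
        Matrix.one_apply_eq, Matrix.one_apply_ne Sum.inl_ne_inr,
        Matrix.one_apply_ne Sum.inr_ne_inl, Matrix.zero_apply]
      linear_combination (X (Sum.inl 0) (Sum.inl 0) ^ 2 +
        X (Sum.inl 0) (Sum.inr 0) * X (Sum.inr 0) (Sum.inl 0)) * h4 - 4 * hX
    · rw [mul2, hN]
      simp only [Matrix.sub_apply, Matrix.smul_apply, smul_eq_mul,
        Matrix.one_apply_eq, Matrix.one_apply_ne Sum.inl_ne_inr,
        Matrix.one_apply_ne Sum.inr_ne_inl, Matrix.zero_apply]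
      linear_combination ((X (Sum.inl 0) (Sum.inl 0) + X (Sum.inr 0) (Sum.inr 0)) *
        X (Sum.inl 0) (Sum.inr 0)) * h4
    · rw [mul2, hN]
      simp only [Matrix.sub_apply, Matrix.smul_apply, smul_eq_mul,
        Matrix.one_apply_eq, Matrix.one_apply_ne Sum.inl_ne_inr,
        Matrix.one_apply_ne Sum.inr_ne_inl, Matrix.zero_apply]
      linear_combination ((X (Sum.inl 0) (Sum.inl 0) + X (Sum.inr 0) (Sum.inr 0)) *
        X (Sum.inr 0) (Sum.inl 0)) * h4
    · rw [mul2, hN]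
      simp only [Matrix.sub_apply, Matrix.smul_apply, smul_eq_mul,
        Matrix.one_apply_eq, Matrix.one_apply_ne Sum.inl_ne_inr,
        Matrix.one_apply_ne Sum.inr_ne_inl, Matrix.zero_apply]
      linear_combination (X (Sum.inr 0) (Sum.inr 0) ^ 2 +
        X (Sum.inl 0) (Sum.inr 0) * X (Sum.inr 0) (Sum.inl 0)) * h4 - 4 * hX
  have hpow : ∀ m : ℕ, (X * X) ^ m = 1 + (m : F) • N := by
    intro m
    induction m with
    | zero => simp
    | succ m ih =>
      rw [pow_succ, ih, hMM, mul_add, mul_one, add_mul, one_mul, Matrix.smul_mul, hNN,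
        smul_zero, add_zero, Nat.cast_succ, add_smul, one_smul, add_assoc]
  have h5 := hpow (2 ^ k)
  rw [hk] at h5
  have h6 : (1 : Matrix (Fin 1 ⊕ Fin 1) (Fin 1 ⊕ Fin 1) F) + ((2 ^ k : ℕ) : F) • N = 1 + 0 := by
    rw [add_zero]; exact h5.symm
  have h7 : ((2 ^ k : ℕ) : F) • N = 0 := add_left_cancel h6
  have h8 : ((2 ^ k : ℕ) : F) ≠ 0 := by
    rw [Nat.cast_pow, Nat.cast_ofNat]
    exact pow_ne_zero k h2F
  have h9 : N = 0 := (smul_eq_zero.mp h7).resolve_left h8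
  rw [hMM, h9, add_zero]

theorem coe_pow_sp {F : Type*} [Field F] (x : Matrix.symplecticGroup (Fin 1) F) (m : ℕ) :
    ((x ^ m : Matrix.symplecticGroup (Fin 1) F) : Matrix (Fin 1 ⊕ Fin 1) (Fin 1 ⊕ Fin 1) F) =
      (x : Matrix (Fin 1 ⊕ Fin 1) (Fin 1 ⊕ Fin 1) F) ^ m := by
  induction m with
  | zero => rw [pow_zero, pow_zero]; rfl
  | succ m ih => rw [pow_succ, pow_succ, ← ih]; rfl

theorem sp1_nc {F : Type*} [Field F] [Fintype F] (h2F : (2 : F) ≠ 0)
    (Q : Subgroup (Matrix.symplecticGroup (Fin 1) F)) (hQp : IsPGroup 2 Q)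
    (x : Matrix.symplecticGroup (Fin 1) F) (hx : x ∈ Q)
    (hnc : ∃ b ∈ Q, b * x ≠ x * b) : x * x ∈ ⁅Q, Q⁆ := by
  classical
  haveI : Fact (Nat.Prime 2) := ⟨Nat.prime_two⟩
  haveI : Group.IsNilpotent ↥Q := hQp.isNilpotent
  obtain ⟨b, hb, hbx⟩ := hnc
  let x' : ↥Q := ⟨x, hx⟩
  let H : Subgroup ↥Q := Subgroup.centralizer {x'}
  have hH : H < ⊤ := by
    rw [lt_top_iff_ne_top]
    intro h
    have h1 : (⟨b, hb⟩ : ↥Q) ∈ H := by rw [h]; exact Subgroup.mem_top _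
    rw [Subgroup.mem_centralizer_iff] at h1
    have h2 := h1 x' (Set.mem_singleton _)
    exact hbx (congrArg Subtype.val h2).symm
  have hN := Group.normalizerCondition_of_isNilpotent (G := ↥Q) H hH
  obtain ⟨g, hgN, hgH⟩ := SetLike.exists_of_lt hN
  have hxH : x' ∈ H := by
    rw [Subgroup.mem_centralizer_iff]
    intro h hh
    rw [Set.mem_singleton_iff] at hh
    rw [hh]
  have hyH : g * x' * g⁻¹ ∈ H := (Subgroup.mem_normalizer_iff.mp hgN x').mp hxH
  have hcomm' : x' * (g * x' * g⁻¹) = (g * x' * g⁻¹) * x' := by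
    rw [Subgroup.mem_centralizer_iff] at hyH
    exact hyH x' (Set.mem_singleton _)
  have hne' : g * x' * g⁻¹ ≠ x' := by
    intro h
    apply hgH
    rw [Subgroup.mem_centralizer_iff]
    intro h' hh
    rw [Set.mem_singleton_iff] at hh
    rw [hh]
    rw [mul_inv_eq_iff_eq_mul] at h
    exact h.symm
  have hggQ : (g : Matrix.symplecticGroup (Fin 1) F) ∈ Q := g.2
  have hcomm : x * ((g : Matrix.symplecticGroup (Fin 1) F) * x *
      (g : Matrix.symplecticGroup (Fin 1) F)⁻¹) =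
      ((g : Matrix.symplecticGroup (Fin 1) F) * x *
      (g : Matrix.symplecticGroup (Fin 1) F)⁻¹) * x := congrArg Subtype.val hcomm'
  have hne : (g : Matrix.symplecticGroup (Fin 1) F) * x *
      (g : Matrix.symplecticGroup (Fin 1) F)⁻¹ ≠ x := fun h => hne' (Subtype.ext h)
  generalize (g : Matrix.symplecticGroup (Fin 1) F) = gg at hggQ hcomm hne
  have hXdet := sp1_det (x : Matrix (Fin 1 ⊕ Fin 1) (Fin 1 ⊕ Fin 1) F) x.2
  by_cases h4 : ((x : Matrix (Fin 1 ⊕ Fin 1) (Fin 1 ⊕ Fin 1) F) (Sum.inl 0) (Sum.inl 0) +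
      (x : Matrix (Fin 1 ⊕ Fin 1) (Fin 1 ⊕ Fin 1) F) (Sum.inr 0) (Sum.inr 0)) ^ 2 = 4
  · obtain ⟨k, hk⟩ := hQp ⟨x * x, mul_mem hx hx⟩
    have hk1 : (x * x) ^ (2 ^ k) = 1 := congrArg Subtype.val hk
    have hk2 : ((x : Matrix (Fin 1 ⊕ Fin 1) (Fin 1 ⊕ Fin 1) F) * x) ^ (2 ^ k) = 1 := by
      have h5 := congrArg Subtype.val hk1
      rw [coe_pow_sp] at h5
      exact h5
    have h6 : x * x = 1 := Subtype.ext (mat_unip h2F _ hXdet h4 k hk2)
    rw [h6]
    exact one_mem _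
  · have hYdet := sp1_det ((gg * x * gg⁻¹ : Matrix.symplecticGroup (Fin 1) F) :
      Matrix (Fin 1 ⊕ Fin 1) (Fin 1 ⊕ Fin 1) F) (gg * x * gg⁻¹).2
    have hG : ((gg⁻¹ : Matrix.symplecticGroup (Fin 1) F) :
        Matrix (Fin 1 ⊕ Fin 1) (Fin 1 ⊕ Fin 1) F) *
        (gg : Matrix (Fin 1 ⊕ Fin 1) (Fin 1 ⊕ Fin 1) F) = 1 :=
      congrArg Subtype.val (inv_mul_cancel gg)
    have htr : Matrix.trace ((gg * x * gg⁻¹ : Matrix.symplecticGroup (Fin 1) F) :
        Matrix (Fin 1 ⊕ Fin 1) (Fin 1 ⊕ Fin 1) F) =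
        Matrix.trace (x : Matrix (Fin 1 ⊕ Fin 1) (Fin 1 ⊕ Fin 1) F) := by
      have h1 : ((gg * x * gg⁻¹ : Matrix.symplecticGroup (Fin 1) F) :
          Matrix (Fin 1 ⊕ Fin 1) (Fin 1 ⊕ Fin 1) F) =
          (gg : Matrix (Fin 1 ⊕ Fin 1) (Fin 1 ⊕ Fin 1) F) * x *
            ((gg⁻¹ : Matrix.symplecticGroup (Fin 1) F) :
              Matrix (Fin 1 ⊕ Fin 1) (Fin 1 ⊕ Fin 1) F) := rfl
      rw [h1, Matrix.trace_mul_comm, ← Matrix.mul_assoc, hG, Matrix.one_mul]
    rw [trace2, trace2] at htr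
    have hM : (x : Matrix (Fin 1 ⊕ Fin 1) (Fin 1 ⊕ Fin 1) F) *
        ((gg * x * gg⁻¹ : Matrix.symplecticGroup (Fin 1) F) :
          Matrix (Fin 1 ⊕ Fin 1) (Fin 1 ⊕ Fin 1) F) =
        ((gg * x * gg⁻¹ : Matrix.symplecticGroup (Fin 1) F) :
          Matrix (Fin 1 ⊕ Fin 1) (Fin 1 ⊕ Fin 1) F) * x := congrArg Subtype.val hcomm
    rcases mat_key _ _ hXdet hYdet htr hM h4 with h | h
    · exact absurd (Subtype.ext h) hne
    · have hyx : gg * x * gg⁻¹ * x = 1 := Subtype.ext h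
      have hc : ⁅gg, x⁆ ∈ ⁅Q, Q⁆ := Subgroup.commutator_mem_commutator hggQ hx
      have h5 : ⁅gg, x⁆ = (x * x)⁻¹ := by
        rw [commutatorElement_def, eq_inv_of_mul_eq_one_left hyx]
        group
      rw [h5] at hc
      exact inv_mem_iff.mp hc

theorem sp1_sq {F : Type*} [Field F] [Fintype F] (h2F : (2 : F) ≠ 0)
    (Q : Subgroup (Matrix.symplecticGroup (Fin 1) F)) (hQp : IsPGroup 2 Q)
    (hna : ∃ a ∈ Q, ∃ b ∈ Q, a * b ≠ b * a) : ∀ x ∈ Q, x * x ∈ ⁅Q, Q⁆ := by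
  intro x hx
  by_cases hc : ∃ b ∈ Q, b * x ≠ x * b
  · exact sp1_nc h2F Q hQp x hx hc
  · push_neg at hc
    obtain ⟨a, ha, b, hb, hab⟩ := hna
    have h1 : (x * a) * (x * a) ∈ ⁅Q, Q⁆ := by
      apply sp1_nc h2F Q hQp (x * a) (mul_mem hx ha)
      refine ⟨b, hb, ?_⟩
      intro h
      apply hab
      have h2 := hc b hb
      rw [← mul_assoc, h2, mul_assoc, mul_assoc] at h
      exact (mul_left_cancel h).symm
    have h2 : a * a ∈ ⁅Q, Q⁆ := by
      apply sp1_nc h2F Q hQp a ha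
      exact ⟨b, hb, fun h => hab h.symm⟩
    have h3 : x * x = (x * a) * (x * a) * (a * a)⁻¹ := by
      have h4 := hc a ha
      rw [mul_assoc x a (x * a), ← mul_assoc a x a, h4]
      group
    rw [h3]
    exact mul_mem h1 (inv_mem h2)

theorem exists_sylow_sp1_sq {F : Type*} [Field F] [Fintype F] (hF : Odd (Fintype.card F)) :
    ∃ Q : Sylow 2 (Matrix.symplecticGroup (Fin 1) F),
      ∀ x ∈ (Q : Subgroup (Matrix.symplecticGroup (Fin 1) F)),
        x * x ∈ ⁅(Q : Subgroup (Matrix.symplecticGroup (Fin 1) F)),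
          (Q : Subgroup (Matrix.symplecticGroup (Fin 1) F))⁆ := by
  classical
  have h2F : (2 : F) ≠ 0 := two_ne_zero_of_odd hF
  obtain ⟨D, hDp, hDder⟩ := Cfsg.Agent.Helper22.exists_q8_sp hF (Fin 1)
  obtain ⟨Q, hDQ⟩ := hDp.exists_le_sylow
  refine ⟨Q, sp1_sq h2F _ Q.isPGroup' ?_⟩
  by_contra hcon
  push_neg at hcon
  apply hDder
  rw [derivedSeries_one, commutator_def, Subgroup.commutator_eq_bot_iff_le_centralizer]
  intro a _
  rw [Subgroup.mem_centralizer_iff]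
  intro b _
  exact Subtype.ext (hcon b (hDQ b.2) a (hDQ a.2))

end Cfsg.Agent.H6SpSyl
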