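import Mathlib
import Cfsg.Agent.Helper6.SpSylD
import Cfsg.Agent.Helper6.SpSylE
import Cfsg.Agent.Helper6.SpSylF

set_option autoImplicit false

namespace Cfsg.Agent.H6SpSyl

open scoped commutatorElement

open Matrix

/-- Some Sylow `2`-subgroup of `Sp_{2n}(F)` (`|F|` odd) has all squares in its derived subgroup. -/
theorem exists_sylow_sq {F : Type*} [Field F] [Fintype F] (hF : Odd (Fintype.card F)) (n : ℕ) :
    ∃ T : Sylow 2 (Matrix.symplecticGroup (Fin n) F),
      ∀ x ∈ (T : Subgroup (Matrix.symplecticGroup (Fin n) F)),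
        x * x ∈ ⁅(T : Subgroup (Matrix.symplecticGroup (Fin n) F)),
          (T : Subgroup (Matrix.symplecticGroup (Fin n) F))⁆ := by
  classical
  haveI : Fact (Nat.Prime 2) := ⟨Nat.prime_two⟩
  obtain ⟨Q, hQsq⟩ := exists_sylow_sp1_sq hF
  obtain ⟨R, hRcard, hRsq⟩ := exists_perm_sq n
  set v := padicValNat 2 (Nat.card (Matrix.symplecticGroup (Fin 1) F)) with hv
  have hQcard : Nat.card (Q : Subgroup (Matrix.symplecticGroup (Fin 1) F)) = 2 ^ v := by
    rw [Sylow.card_eq_multiplicity, Nat.factorization_def _ Nat.prime_two]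
  have hpiQcard : Nat.card (Subgroup.pi Set.univ
      (fun _ : Fin n => (Q : Subgroup (Matrix.symplecticGroup (Fin 1) F)))) = 2 ^ (n * v) := by
    have e : (Subgroup.pi Set.univ
        (fun _ : Fin n => (Q : Subgroup (Matrix.symplecticGroup (Fin 1) F)))) ≃
        (Fin n → ↥(Q : Subgroup (Matrix.symplecticGroup (Fin 1) F))) :=
      { toFun := fun f i => ⟨f.1 i, f.2 i (Set.mem_univ i)⟩
        invFun := fun f => ⟨fun i => (f i : Matrix.symplecticGroup (Fin 1) F),
          fun i _ => (f i).2⟩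
        left_inv := fun f => rfl
        right_inv := fun f => rfl }
    rw [Nat.card_congr e, Nat.card_fun, hQcard, Nat.card_fin, ← pow_mul, mul_comm]
  have hpiQsq : ∀ g ∈ Subgroup.pi Set.univ
      (fun _ : Fin n => (Q : Subgroup (Matrix.symplecticGroup (Fin 1) F))),
      g * g ∈ ⁅Subgroup.pi Set.univ
        (fun _ : Fin n => (Q : Subgroup (Matrix.symplecticGroup (Fin 1) F))),
        Subgroup.pi Set.univ
        (fun _ : Fin n => (Q : Subgroup (Matrix.symplecticGroup (Fin 1) F)))⁆ := by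
    intro g hg
    rw [Subgroup.commutator_pi_pi_of_finite]
    intro i _
    exact hQsq (g i) (hg i (Set.mem_univ i))
  have hconj : ∀ (σ : Equiv.Perm (Fin n)) (g : Fin n → Matrix.symplecticGroup (Fin 1) F),
      Pie σ * Psi g * (Pie σ)⁻¹ = Psi (fun i => g (σ.symm i)) := by
    intro σ g
    rw [Pie_Psi, mul_inv_cancel_right]
  have hT0card : Nat.card (((Subgroup.pi Set.univ
      (fun _ : Fin n => (Q : Subgroup (Matrix.symplecticGroup (Fin 1) F)))).map
        (Psi (F := F) (n := n))) ⊔ R.map (Pie (F := F) (n := n)) :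
        Subgroup (Matrix.symplecticGroup (Fin n) F)) =
      2 ^ (n * v + padicValNat 2 n.factorial) := by
    apply card_sup
    · rw [Subgroup.card_map_of_injective Psi_injective, hpiQcard]
    · rw [Subgroup.card_map_of_injective Pie_injective, hRcard]
    · rintro _ ⟨σ, _, rfl⟩ _ ⟨g, hg, rfl⟩
      rw [hconj]
      exact Subgroup.mem_map_of_mem _ (fun i _ => hg (σ.symm i) (Set.mem_univ _))
    · rintro _ ⟨g, _, rfl⟩ ⟨σ, _, hσ⟩
      have h1 := Psi_eq_Pie σ g hσ.symm
      rw [← hσ, h1, map_one]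
    · rw [val_sp hF n]
  have hT0 : Nat.card (((Subgroup.pi Set.univ
      (fun _ : Fin n => (Q : Subgroup (Matrix.symplecticGroup (Fin 1) F)))).map
        (Psi (F := F) (n := n))) ⊔ R.map (Pie (F := F) (n := n)) :
        Subgroup (Matrix.symplecticGroup (Fin n) F)) =
      2 ^ (Nat.card (Matrix.symplecticGroup (Fin n) F)).factorization 2 := by
    rw [hT0card, Nat.factorization_def _ Nat.prime_two, val_sp hF n]
  refine ⟨Sylow.ofCard _ hT0, ?_⟩
  rw [Sylow.coe_ofCard]
  apply sq_sup
  · exact sq_map _ _ hpiQsq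
  · exact sq_map _ R hRsq

end Cfsg.Agent.H6SpSyl
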